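import Mathlib
import Cfsg.Agent.S4106
import Cfsg.Agent.S0581
import Cfsg.Agent.S0079
import Cfsg.Agent.S0023
import Cfsg.Agent.S0024
import Cfsg.Agent.S0025
import Cfsg.Agent.S0133
import Cfsg.Agent.S0134
import Cfsg.Agent.S0135
import Cfsg.Agent.S0154
import Cfsg.Agent.Characters.Core
set_option linter.all false

-- part: H518/PiCount
section
/-!
# Counting classes of `π`-elements (for S4104, S4105)

`kc s G` is the number of conjugacy classes of `s`-elements of `G` (`s` a finite set of primes).
`kc_le_sum`: the number of classes of `σ ∪ τ`-elements is at most the sum, over representatives `y` of the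
classes of `σ`-elements, of the number of classes of `τ`-elements of `C_G(y)`.
`mul_kc_le`: the number of classes bounded by the sizes of the traces on a set.
-/

set_option autoImplicit false

namespace Cfsg.Agent.H518.PiCount

universe u v

/-- all prime divisors of the order of `g` lie in `s` -/
def IsElt {G : Type u} [Group G] (s : Finset ℕ) (g : G) : Prop :=
  ∀ q : ℕ, q.Prime → q ∣ orderOf g → q ∈ s

/-- number of conjugacy classes of `s`-elements -/
noncomputable def kc (s : Finset ℕ) (G : Type u) [Group G] : ℕ :=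
  Nat.card {C : ConjClasses G // ∃ g : G, ConjClasses.mk g = C ∧ IsElt s g}

/-- the `s`-part of a natural number -/
def part (s : Finset ℕ) (n : ℕ) : ℕ := ∏ q ∈ s, q ^ n.factorization q

theorem kc_le_part {G : Type u} [Group G] [Finite G] (s : Finset ℕ) (hs : ∀ q ∈ s, q.Prime) :
    kc s G ≤ part s (Nat.card G) := Cfsg.Agent.S4106.key s hs G

theorem orderOf_conj {G : Type u} [Group G] (c g : G) : orderOf (c * g * c⁻¹) = orderOf g := by
  have := MulAut.conj_apply c g
  rw [← this]
  exact orderOf_injective (MulAut.conj c).toMonoidHom (MulAut.conj c).injective g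

theorem IsElt.of_isConj {G : Type u} [Group G] {s : Finset ℕ} {g h : G} (hg : IsElt s g) (h' : IsConj g h) :
    IsElt s h := by
  obtain ⟨c, rfl⟩ := isConj_iff.1 h'
  intro q hq hqd
  rw [orderOf_conj] at hqd
  exact hg q hq hqd

theorem IsElt.mono {G : Type u} [Group G] {s t : Finset ℕ} (h : s ⊆ t) {g : G} (hg : IsElt s g) : IsElt t g :=
  fun q hq hqd => h (hg q hq hqd)

theorem IsElt.of_dvd {G : Type u} [Group G] {H : Type v} [Group H] {s : Finset ℕ} {g : G} {h : H} (hg : IsElt s g)
    (hd : orderOf h ∣ orderOf g) : IsElt s h :=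
  fun q hq hqd => hg q hq (hqd.trans hd)

/-- a representative of a class -/
noncomputable def rep {G : Type u} [Group G] (C : ConjClasses G) : G := Classical.choose (ConjClasses.exists_rep C)

theorem mk_rep {G : Type u} [Group G] (C : ConjClasses G) : ConjClasses.mk (rep C) = C :=
  Classical.choose_spec (ConjClasses.exists_rep C)

theorem isConj_rep {G : Type u} [Group G] (g : G) : IsConj g (rep (ConjClasses.mk g)) :=
  (ConjClasses.mk_eq_mk_iff_isConj.1 (mk_rep (ConjClasses.mk g))).symm

/-- **Summation formula (upper bound).** -/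
theorem kc_le_sum {G : Type u} [Group G] [Finite G] {π σ τ : Finset ℕ} {I : Type v} [Fintype I] (f : I → G)
    (hf : ∀ y : G, IsElt σ y → ∃ i, IsConj y (f i))
    (hsplit : ∀ g : G, IsElt π g → ∃ y x : G, y * x = g ∧ Commute y x ∧ IsElt σ y ∧ IsElt τ x) :
    kc π G ≤ ∑ i, kc τ (Subgroup.centralizer ({f i} : Set G)) := by
  classical
  let T : I → Type u := fun i => {C : ConjClasses (Subgroup.centralizer ({f i} : Set G)) //
    ∃ g : Subgroup.centralizer ({f i} : Set G), ConjClasses.mk g = C ∧ IsElt τ g}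
  have hT : ∀ i, kc τ (Subgroup.centralizer ({f i} : Set G)) = Nat.card (T i) := fun i => rfl
  have hex : ∀ C : {C : ConjClasses G // ∃ g : G, ConjClasses.mk g = C ∧ IsElt π g},
      ∃ z : (Σ i, T i), C.1 = ConjClasses.mk (f z.1 * ((rep z.2.1 : Subgroup.centralizer ({f z.1} : Set G)) : G)) := by
    rintro ⟨_, g, rfl, hg⟩
    obtain ⟨y, x, hyx, hcomm, hy, hx⟩ := hsplit g hg
    obtain ⟨i, hi⟩ := hf y hy
    obtain ⟨c, hc⟩ := isConj_iff.1 hi
    have hxc : c * x * c⁻¹ ∈ Subgroup.centralizer ({f i} : Set G) := by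
      rw [Subgroup.mem_centralizer_singleton_iff, ← hc]
      have := hcomm.eq
      calc c * x * c⁻¹ * (c * y * c⁻¹) = c * (x * y) * c⁻¹ := by group
        _ = c * (y * x) * c⁻¹ := by rw [this]
        _ = c * y * c⁻¹ * (c * x * c⁻¹) := by group
    have hxe : IsElt τ (⟨c * x * c⁻¹, hxc⟩ : Subgroup.centralizer ({f i} : Set G)) := by
      refine hx.of_dvd ?_
      rw [← Subgroup.orderOf_coe]
      simp only
      rw [orderOf_conj]
    refine ⟨⟨i, ⟨ConjClasses.mk ⟨c * x * c⁻¹, hxc⟩, _, rfl, hxe⟩⟩, ?_⟩
    simp only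
    rw [ConjClasses.mk_eq_mk_iff_isConj]
    obtain ⟨d, hd⟩ := isConj_iff.1 (isConj_rep (⟨c * x * c⁻¹, hxc⟩ : Subgroup.centralizer ({f i} : Set G)))
    rw [← hd]
    have hdc : (d : G) * f i = f i * d := by
      have := d.2
      rwa [Subgroup.mem_centralizer_singleton_iff] at this
    rw [isConj_iff]
    refine ⟨d * c, ?_⟩
    push_cast
    rw [← hyx]
    calc (d : G) * c * (y * x) * ((d : G) * c)⁻¹ = d * (c * y * c⁻¹) * (c * x * c⁻¹) * (d : G)⁻¹ := by group
      _ = d * f i * (c * x * c⁻¹) * (d : G)⁻¹ := by rw [hc]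
      _ = f i * d * (c * x * c⁻¹) * (d : G)⁻¹ := by rw [hdc]
      _ = f i * (d * (c * x * c⁻¹) * (d : G)⁻¹) := by group
  choose φ hφ using hex
  have hinj : Function.Injective φ := by
    intro C D h
    apply Subtype.ext
    rw [hφ C, hφ D, h]
  calc kc π G ≤ Nat.card (Σ i, T i) := Nat.card_le_card_of_injective φ hinj
    _ = ∑ i, Nat.card (T i) := Nat.card_sigma
    _ = ∑ i, kc τ (Subgroup.centralizer ({f i} : Set G)) := rfl

theorem split_p {G : Type u} [Group G] [Finite G] {p : ℕ} (hp : p.Prime) {s : Finset ℕ} (g : G)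
    (hg : IsElt (insert p s) g) : ∃ y x : G, y * x = g ∧ Commute y x ∧ IsElt s y ∧ IsElt {p} x := by
  obtain ⟨x, y, hxy, hcomm, ⟨k, hk⟩, hy, hxg, hyg⟩ := Cfsg.Agent.S4106.split p hp g
  refine ⟨y, x, ?_, hcomm.symm, ?_, ?_⟩
  · rw [← hcomm.eq, hxy]
  · intro q hq hqd
    rcases Finset.mem_insert.1 (hg q hq (hqd.trans hyg)) with h | h
    · exact absurd (h ▸ hqd) hy
    · exact h
  · intro q hq hqd
    have : q ∣ p ^ k := hqd.trans hk
    rw [(Nat.prime_dvd_prime_iff_eq hq hp).1 (hq.dvd_of_dvd_pow this)]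
    exact Finset.mem_singleton_self _

theorem split_p' {G : Type u} [Group G] [Finite G] {p : ℕ} (hp : p.Prime) {s : Finset ℕ} (g : G)
    (hg : IsElt (insert p s) g) : ∃ y x : G, y * x = g ∧ Commute y x ∧ IsElt {p} y ∧ IsElt s x := by
  obtain ⟨y, x, h1, h2, h3, h4⟩ := split_p hp g hg
  exact ⟨x, y, by rw [← h2.eq, h1], h2.symm, h4, h3⟩

/-- **Orbit bound.** If every `s`-element is conjugate into `V`, and elements of `V` outside `F` have at least `u`
conjugates in `V`, then `u * kc s H ≤ |V| + (u - 1) |F|`. -/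
theorem mul_kc_le {H : Type u} [Group H] [Finite H] {s : Finset ℕ} (V F : Set H) (m : ℕ) (hm : 1 ≤ m)
    (hcov : ∀ g : H, IsElt s g → ∃ v ∈ V, IsConj g v)
    (hu : ∀ v ∈ V, v ∉ F → m ≤ Nat.card {w : H // w ∈ V ∧ IsConj v w}) :
    m * kc s H ≤ Nat.card V + (m - 1) * Nat.card F := by
  classical
  have : Fintype H := Fintype.ofFinite H
  have : Fintype (ConjClasses H) := Fintype.ofFinite _
  set V' : Finset H := Finset.univ.filter (fun x => x ∈ V) with hV'
  set F' : Finset H := Finset.univ.filter (fun x => x ∈ F) with hF'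
  set 𝒞 : Finset (ConjClasses H) := Finset.univ.filter (fun C => ∃ g : H, ConjClasses.mk g = C ∧ IsElt s g) with h𝒞
  have hcardV : Nat.card V = V'.card := by
    rw [hV', ← Fintype.card_subtype, ← Nat.card_eq_fintype_card]
  have hcardF : Nat.card F = F'.card := by
    rw [hF', ← Fintype.card_subtype, ← Nat.card_eq_fintype_card]
  have hkc : kc s H = 𝒞.card := by
    rw [h𝒞, ← Fintype.card_subtype, ← Nat.card_eq_fintype_card]
    rfl
  have hVsum : V'.card = ∑ C : ConjClasses H, (V'.filter (fun x => ConjClasses.mk x = C)).card :=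
    Finset.card_eq_sum_card_fiberwise (f := fun x : H => ConjClasses.mk x) (s := V')
      (t := (Finset.univ : Finset (ConjClasses H))) (fun _ _ => Finset.mem_univ _)
  have hFsum : F'.card = ∑ C : ConjClasses H, (F'.filter (fun x => ConjClasses.mk x = C)).card :=
    Finset.card_eq_sum_card_fiberwise (f := fun x : H => ConjClasses.mk x) (s := F')
      (t := (Finset.univ : Finset (ConjClasses H))) (fun _ _ => Finset.mem_univ _)
  rw [hcardV, hcardF, hkc, hVsum, hFsum, Finset.mul_sum, ← Finset.sum_add_distrib]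
  calc m * 𝒞.card = ∑ C ∈ 𝒞, m := by rw [Finset.sum_const, smul_eq_mul, mul_comm]
    _ ≤ ∑ C ∈ 𝒞, ((V'.filter (fun x => ConjClasses.mk x = C)).card +
          (m - 1) * (F'.filter (fun x => ConjClasses.mk x = C)).card) := by
        apply Finset.sum_le_sum
        intro C hC
        rw [h𝒞, Finset.mem_filter] at hC
        obtain ⟨_, g, rfl, hg⟩ := hC
        obtain ⟨v, hv, hgv⟩ := hcov g hg
        have hmk : ConjClasses.mk v = ConjClasses.mk g := ConjClasses.mk_eq_mk_iff_isConj.2 hgv.symm
        have hvV : v ∈ V'.filter (fun x => ConjClasses.mk x = ConjClasses.mk g) := by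
          rw [hV', Finset.mem_filter, Finset.mem_filter]
          exact ⟨⟨Finset.mem_univ _, hv⟩, hmk⟩
        have h1 : 1 ≤ (V'.filter (fun x => ConjClasses.mk x = ConjClasses.mk g)).card :=
          Finset.card_pos.2 ⟨v, hvV⟩
        by_cases hvF : v ∈ F
        · have hvF' : v ∈ F'.filter (fun x => ConjClasses.mk x = ConjClasses.mk g) := by
            rw [hF', Finset.mem_filter, Finset.mem_filter]
            exact ⟨⟨Finset.mem_univ _, hvF⟩, hmk⟩
          have h2 : 1 ≤ (F'.filter (fun x => ConjClasses.mk x = ConjClasses.mk g)).card :=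
            Finset.card_pos.2 ⟨v, hvF'⟩
          have h3 : (m - 1) * 1 ≤ (m - 1) * (F'.filter (fun x => ConjClasses.mk x = ConjClasses.mk g)).card :=
            Nat.mul_le_mul_left _ h2
          omega
        · have h2 := hu v hv hvF
          have h3 : Nat.card {w : H // w ∈ V ∧ IsConj v w} =
              (V'.filter (fun x => ConjClasses.mk x = ConjClasses.mk g)).card := by
            rw [hV', Finset.filter_filter, Nat.card_eq_fintype_card, Fintype.card_subtype]
            congr 1
            ext w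
            simp only [Finset.mem_filter, Finset.mem_univ, true_and]
            rw [← hmk, ConjClasses.mk_eq_mk_iff_isConj]
            constructor
            · rintro ⟨a, b⟩; exact ⟨a, b.symm⟩
            · rintro ⟨a, b⟩; exact ⟨a, b.symm⟩
          rw [h3] at h2
          exact h2.trans (Nat.le_add_right _ _)
    _ ≤ ∑ C : ConjClasses H, ((V'.filter (fun x => ConjClasses.mk x = C)).card +
          (m - 1) * (F'.filter (fun x => ConjClasses.mk x = C)).card) :=
        Finset.sum_le_sum_of_subset (Finset.subset_univ _)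

/-- The number of classes of `s`-elements is at most the number of classes of a subgroup covering them. -/
theorem kc_le_card_conjClasses {G : Type u} [Group G] [Finite G] {s : Finset ℕ} (A : Subgroup G)
    (hcov : ∀ g : G, IsElt s g → ∃ v ∈ A, IsConj g v) : kc s G ≤ Nat.card (ConjClasses A) := by
  classical
  have hex : ∀ C : {C : ConjClasses G // ∃ g : G, ConjClasses.mk g = C ∧ IsElt s g},
      ∃ D : ConjClasses A, C.1 = ConjClasses.mk ((rep D : A) : G) := by
    rintro ⟨_, g, rfl, hg⟩
    obtain ⟨v, hv, hgv⟩ := hcov g hg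
    refine ⟨ConjClasses.mk ⟨v, hv⟩, ?_⟩
    simp only
    rw [ConjClasses.mk_eq_mk_iff_isConj]
    refine hgv.trans ?_
    obtain ⟨d, hd⟩ := isConj_iff.1 (isConj_rep (⟨v, hv⟩ : A))
    rw [isConj_iff]
    refine ⟨d, ?_⟩
    rw [← hd]
    simp
  choose φ hφ using hex
  have hinj : Function.Injective φ := by
    intro C D h
    apply Subtype.ext
    rw [hφ C, hφ D, h]
  exact Nat.card_le_card_of_injective φ hinj

end Cfsg.Agent.H518.PiCount
end

-- part: H518/PiHall
section
/-!
# Nilpotent Hall subgroups and parts of numbers (for S4104, S4105)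
-/

set_option autoImplicit false

namespace Cfsg.Agent.H518.PiHall

open Cfsg.Agent.H518.PiCount
open scoped Pointwise

universe u

theorem part_ne_zero {s : Finset ℕ} (hs : ∀ q ∈ s, q.Prime) (n : ℕ) : part s n ≠ 0 := by
  unfold part
  rw [Finset.prod_ne_zero_iff]
  intro q hq
  exact pow_ne_zero _ (hs q hq).ne_zero

theorem factorization_part {s : Finset ℕ} (hs : ∀ q ∈ s, q.Prime) (n q : ℕ) :
    (part s n).factorization q = if q ∈ s then n.factorization q else 0 := by
  classical
  induction s using Finset.induction_on with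
  | empty => simp [part]
  | insert a s ha ih =>
    have hs' : ∀ q ∈ s, q.Prime := fun q hq => hs q (Finset.mem_insert_of_mem hq)
    have hap : a.Prime := hs a (Finset.mem_insert_self _ _)
    have h1 : part (insert a s) n = a ^ n.factorization a * part s n := Finset.prod_insert ha
    rw [h1, Nat.factorization_mul (pow_ne_zero _ hap.ne_zero) (part_ne_zero hs' n), Finsupp.add_apply, ih hs',
      hap.factorization_pow, Finsupp.single_apply]
    by_cases hqa : q = a
    · subst hqa
      simp [ha]
    · rw [if_neg (fun h => hqa h.symm), zero_add]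
      simp [hqa]

theorem part_insert {p : ℕ} {s : Finset ℕ} (hp : p ∉ s) (n : ℕ) :
    part (insert p s) n = p ^ n.factorization p * part s n := Finset.prod_insert hp

theorem part_dvd {s : Finset ℕ} (hs : ∀ q ∈ s, q.Prime) {n : ℕ} (hn : n ≠ 0) : part s n ∣ n := by
  rw [← Nat.factorization_le_iff_dvd (part_ne_zero hs n) hn]
  intro q
  rw [factorization_part hs]
  split_ifs
  · exact le_rfl
  · exact Nat.zero_le _

theorem mem_of_dvd_part {s : Finset ℕ} (hs : ∀ q ∈ s, q.Prime) {n q : ℕ} (hq : q.Prime) (hqd : q ∣ part s n) :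
    q ∈ s := by
  by_contra hqs
  have h := factorization_part hs n q
  rw [if_neg hqs] at h
  have h1 := (hq.dvd_iff_one_le_factorization (part_ne_zero hs n)).1 hqd
  omega

theorem dvd_part {s : Finset ℕ} (hs : ∀ q ∈ s, q.Prime) {n d : ℕ} (hn : n ≠ 0) (hd : d ∣ n)
    (hds : ∀ q : ℕ, q.Prime → q ∣ d → q ∈ s) : d ∣ part s n := by
  have hd0 : d ≠ 0 := fun h => hn (by rw [h, zero_dvd_iff] at hd; exact hd)
  rw [← Nat.factorization_le_iff_dvd hd0 (part_ne_zero hs n)]
  intro q
  rw [factorization_part hs]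
  split_ifs with h
  · exact (Nat.factorization_le_iff_dvd hd0 hn).2 hd q
  · by_cases hq : q.Prime
    · rw [Nat.le_zero]
      exact Nat.factorization_eq_zero_of_not_dvd (fun hqd => h (hds q hq hqd))
    · rw [Nat.factorization_eq_zero_of_not_prime _ hq]

theorem coprime_div_part {s : Finset ℕ} (hs : ∀ q ∈ s, q.Prime) {n m k : ℕ} (hn : n ≠ 0) (hm : m * k = n)
    (hmp : m = part s n) : m.Coprime k := by
  refine Nat.coprime_of_dvd fun q hq hqm hqk => ?_
  have hqs : q ∈ s := mem_of_dvd_part hs hq (hmp ▸ hqm)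
  have hm0 : m ≠ 0 := fun h => hn (by rw [← hm, h, zero_mul])
  have hk0 : k ≠ 0 := fun h => hn (by rw [← hm, h, mul_zero])
  have h1 : n.factorization q = m.factorization q + k.factorization q := by
    rw [← hm, Nat.factorization_mul hm0 hk0, Finsupp.add_apply]
  have h2 : m.factorization q = n.factorization q := by
    rw [hmp, factorization_part hs, if_pos hqs]
  have h3 := (hq.dvd_iff_one_le_factorization hk0).1 hqk
  omega

theorem part_mono {s : Finset ℕ} (hs : ∀ q ∈ s, q.Prime) {n m : ℕ} (hn : n ≠ 0) (hmn : m ∣ n) :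
    part s m ∣ part s n := by
  have hm : m ≠ 0 := fun h => hn (by rw [h, zero_dvd_iff] at hmn; exact hmn)
  exact dvd_part hs hn ((part_dvd hs hm).trans hmn) (fun q hq hqd => mem_of_dvd_part hs hq hqd)

/-- A nilpotent Hall `s`-subgroup. -/
structure NilHall {G : Type u} [Group G] (s : Finset ℕ) (A : Subgroup G) : Prop where
  nil : Group.IsNilpotent A
  card : Nat.card A = part s (Nat.card G)

namespace NilHall

variable {G : Type u} [Group G] [Finite G] {s : Finset ℕ} {A : Subgroup G}

theorem coprime_index (hs : ∀ q ∈ s, q.Prime) (hA : NilHall s A) : (Nat.card A).Coprime A.index :=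
  coprime_div_part hs Nat.card_pos.ne' A.card_mul_index hA.card

theorem exists_conj (hs : ∀ q ∈ s, q.Prime) (hA : NilHall s A) (K : Subgroup G)
    (hK : ∀ q : ℕ, q.Prime → q ∣ Nat.card K → q ∈ s) : ∃ x : G, K ≤ MulAut.conj x • A := by
  refine Cfsg.Agent.S0581.result A K hA.nil (hA.coprime_index hs) ?_
  intro q hq hqK
  rw [hA.card]
  exact dvd_part hs Nat.card_pos.ne' (hqK.trans (Subgroup.card_subgroup_dvd_card K))
    (fun r hr hrq => by rw [(Nat.prime_dvd_prime_iff_eq hr hq).1 hrq]; exact hK q hq hqK)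

omit [Finite G] in
theorem mem_of_dvd (hs : ∀ q ∈ s, q.Prime) (hA : NilHall s A) {q : ℕ} (hq : q.Prime) (hqA : q ∣ Nat.card A) :
    q ∈ s := mem_of_dvd_part hs hq (hA.card ▸ hqA)

theorem conj_smul_eq (hs : ∀ q ∈ s, q.Prime) (hA : NilHall s A) {B : Subgroup G}
    (hB : Nat.card B = Nat.card A) : ∃ x : G, B = MulAut.conj x • A := by
  obtain ⟨x, hx⟩ := hA.exists_conj hs B (fun q hq hqB => hA.mem_of_dvd hs hq (hB ▸ hqB))
  refine ⟨x, ?_⟩
  apply Subgroup.eq_of_le_of_card_ge hx
  rw [hB]
  have h : Nat.card (MulAut.conj x • A : Subgroup G) = Nat.card A :=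
    Nat.card_congr (Subgroup.equivSMul (MulAut.conj x) A).symm.toEquiv
  exact h.le

theorem cov (hs : ∀ q ∈ s, q.Prime) (hA : NilHall s A) (g : G) (hg : IsElt s g) : ∃ v ∈ A, IsConj g v := by
  obtain ⟨x, hx⟩ := hA.exists_conj hs (Subgroup.zpowers g) (fun q hq hqd => by
    rw [Nat.card_zpowers] at hqd
    exact hg q hq hqd)
  have hgx : g ∈ MulAut.conj x • A := hx (Subgroup.mem_zpowers g)
  rw [Subgroup.mem_pointwise_smul_iff_inv_smul_mem] at hgx
  refine ⟨_, hgx, ?_⟩
  rw [isConj_iff]
  refine ⟨x⁻¹, ?_⟩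
  rw [← map_inv, MulAut.smul_def, MulAut.conj_apply]

theorem isElt_of_mem (hs : ∀ q ∈ s, q.Prime) (hA : NilHall s A) {g : G} (hg : g ∈ A) : IsElt s g := by
  intro q hq hqd
  refine hA.mem_of_dvd hs hq (hqd.trans ?_)
  have : orderOf (⟨g, hg⟩ : A) ∣ Nat.card A := orderOf_dvd_natCard _
  rwa [← Subgroup.orderOf_coe] at this

end NilHall

theorem nilHall_sylow {G : Type u} [Group G] [Finite G] {p : ℕ} [hp : Fact p.Prime] (T : Sylow p G) :
    NilHall {p} (T : Subgroup G) where
  nil := T.isPGroup'.isNilpotent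
  card := by
    rw [T.card_eq_multiplicity]
    simp [part]

end Cfsg.Agent.H518.PiHall
end

-- part: H518/PiCaseOne
section
/-!
# The main counting case (for S4104, S4105)

`G` has a Sylow `p`-subgroup `T` and a nilpotent Hall `s`-subgroup `A` (`p` smaller than the primes in `s`),
neither of which is central in its normalizer, and `C_G(T)` has few classes of `s`-elements. Then
`p * kc (insert p s) G ≤ |T| |A|`.
-/

set_option autoImplicit false

namespace Cfsg.Agent.H518.PiCaseOne

open Cfsg.Agent.H518.PiCount Cfsg.Agent.H518.PiHall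
open scoped Pointwise

universe u

/-- index of a proper subgroup. -/
theorem mul_card_le_of_lt {G : Type u} [Group G] [Finite G] {A B : Subgroup G} (hAB : B < A) {m : ℕ}
    (hm : ∀ q : ℕ, q.Prime → q ∣ Nat.card A → m ≤ q) : m * Nat.card B ≤ Nat.card A := by
  obtain ⟨k, hk⟩ := Subgroup.card_dvd_of_le hAB.le
  have hB : 0 < Nat.card B := Nat.card_pos
  have hA : 0 < Nat.card A := Nat.card_pos
  have hk1 : k ≠ 1 := by
    rintro rfl
    rw [mul_one] at hk
    exact hAB.ne (Subgroup.eq_of_le_of_card_ge hAB.le hk.le)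
  obtain ⟨q, hq, hqk⟩ := Nat.exists_prime_and_dvd hk1
  have h1 := hm q hq (hqk.trans ⟨Nat.card B, by rw [hk, mul_comm]⟩)
  have hk0 : 0 < k := Nat.pos_of_ne_zero (fun h => by rw [h, mul_zero] at hk; omega)
  have h2 : m ≤ k := h1.trans (Nat.le_of_dvd hk0 hqk)
  calc m * Nat.card B ≤ k * Nat.card B := Nat.mul_le_mul_right _ h2
    _ = Nat.card A := by rw [hk, mul_comm]

/-- The orbit bound for a subgroup `N` normalizing `B`. -/
theorem two_mul_kc_le {H : Type u} [Group H] [Finite H] {s : Finset ℕ} (B N : Subgroup H)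
    (hN : N ≤ Subgroup.normalizer (B : Set H)) (hcov : ∀ g : H, IsElt s g → ∃ v ∈ B, IsConj g v) :
    2 * kc s H ≤ Nat.card B + Nat.card (B ⊓ Subgroup.centralizer (N : Set H) : Subgroup H) := by
  have h := mul_kc_le (H := H) (s := s) (B : Set H) ((B ⊓ Subgroup.centralizer (N : Set H) : Subgroup H) : Set H) 2
    (by norm_num) hcov ?_
  · rw [show (2 - 1 : ℕ) = 1 from rfl, one_mul] at h
    exact h
  intro v hv hvF
  have hex : ∃ n ∈ N, n * v * n⁻¹ ≠ v := by
    by_contra hcon
    push Not at hcon
    apply hvF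
    refine ⟨hv, ?_⟩
    show v ∈ Subgroup.centralizer (N : Set H)
    rw [Subgroup.mem_centralizer_iff]
    intro n hn
    have := hcon n hn
    rw [mul_inv_eq_iff_eq_mul] at this
    exact this
  obtain ⟨n, hn, hne⟩ := hex
  have hmem : n * v * n⁻¹ ∈ B := (Subgroup.mem_normalizer_iff.1 (hN hn) v).1 hv
  have hfin : Finite {w : H // w ∈ (B : Set H) ∧ IsConj v w} := inferInstance
  rw [← Nat.card_congr (Equiv.refl {w : H // w ∈ (B : Set H) ∧ IsConj v w})]
  rw [Nat.succ_le_iff, Finite.one_lt_card_iff_nontrivial]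
  refine ⟨⟨v, hv, IsConj.refl v⟩, ⟨n * v * n⁻¹, hmem, isConj_iff.2 ⟨n, rfl⟩⟩, ?_⟩
  intro h
  exact hne (congrArg Subtype.val h).symm

/-- The bound for the number of classes of `s`-elements when a nilpotent Hall subgroup is not central in its
normalizer. -/
theorem kc_le_of_not_central {G : Type u} [Group G] [Finite G] {s : Finset ℕ} (hs : ∀ q ∈ s, q.Prime)
    {m : ℕ} (hm : ∀ q ∈ s, m ≤ q) (A : Subgroup G) (hA : NilHall s A)
    (hAn : ∃ g ∈ Subgroup.normalizer (A : Set G), ∃ a ∈ A, g * a * g⁻¹ ≠ a) :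
    2 * m * kc s G ≤ (m + 1) * Nat.card A := by
  have h1 := two_mul_kc_le (s := s) A (Subgroup.normalizer (A : Set G)) le_rfl (hA.cov hs)
  have h2 : A ⊓ Subgroup.centralizer ((Subgroup.normalizer (A : Set G) : Subgroup G) : Set G) < A := by
    refine lt_of_le_of_ne inf_le_left ?_
    intro h
    obtain ⟨g, hg, a, ha, hne⟩ := hAn
    apply hne
    rw [← h] at ha
    have := Subgroup.mem_centralizer_iff.1 ha.2 g hg
    rw [this]
    group
  have h3 := mul_card_le_of_lt h2 (m := m) (fun q hq hqA => hm q (hA.mem_of_dvd hs hq hqA))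
  nlinarith

/-- **Case I.** -/
theorem caseI {G : Type u} [Group G] [Finite G] {p : ℕ} (hp : p.Prime) {s : Finset ℕ} (hs : ∀ q ∈ s, q.Prime)
    (hps : ∀ q ∈ s, p < q) (T A : Subgroup G) (hT : NilHall {p} T) (hA : NilHall s A)
    (hTn : ∃ g ∈ Subgroup.normalizer (T : Set G), ∃ t ∈ T, g * t * g⁻¹ ≠ t)
    (hAn : ∃ g ∈ Subgroup.normalizer (A : Set G), ∃ a ∈ A, g * a * g⁻¹ ≠ a)
    (hκ : (p + 1) * kc s (Subgroup.centralizer (T : Set G)) ≤ Nat.card A) :
    p * kc (insert p s) G ≤ Nat.card T * Nat.card A := by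
  classical
  have hp' : Fact p.Prime := ⟨hp⟩
  have hsp : ∀ q ∈ ({p} : Finset ℕ), q.Prime := by
    intro q hq
    rw [Finset.mem_singleton] at hq
    rw [hq]; exact hp
  -- the classes
  let C : Subgroup G := Subgroup.centralizer (T : Set G)
  let I : Type u := {Y : ConjClasses G // ∃ g : G, ConjClasses.mk g = Y ∧ IsElt s g}
  let 𝒟 : Type u := {D : ConjClasses C // ∃ g : C, ConjClasses.mk g = D ∧ IsElt s g}
  have hI : Finite I := inferInstance
  have hFI : Fintype I := Fintype.ofFinite I
  have hFD : Finite 𝒟 := inferInstance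
  have hcoe : ∀ g : C, IsElt s g → IsElt s (g : G) := fun g hg => hg.of_dvd (by rw [Subgroup.orderOf_coe])
  have hcoe' : ∀ g : C, IsElt s (g : G) → IsElt s g := fun g hg => hg.of_dvd (by rw [← Subgroup.orderOf_coe])
  let ψ : 𝒟 → I := fun D => ⟨ConjClasses.mk ((rep D.1 : C) : G), (rep D.1 : C), rfl, by
    obtain ⟨D, g, rfl, hg⟩ := D
    exact hcoe _ (hg.of_isConj (isConj_rep g))⟩
  have hψ : ∀ (g : C) (hg : ∃ g' : C, ConjClasses.mk g' = ConjClasses.mk g ∧ IsElt s g'),
      (ψ ⟨ConjClasses.mk g, hg⟩).1 = ConjClasses.mk (g : G) := by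
    intro g hg
    show ConjClasses.mk ((rep (ConjClasses.mk g) : C) : G) = ConjClasses.mk (g : G)
    rw [ConjClasses.mk_eq_mk_iff_isConj]
    obtain ⟨c, hc⟩ := isConj_iff.1 (isConj_rep g)
    refine (isConj_iff.2 ⟨(c : G), ?_⟩ : IsConj (g : G) _).symm
    rw [← hc]
    simp
  let n : I → ℕ := fun Y => Nat.card {D : 𝒟 // ψ D = Y}
  have hnsum : ∑ Y, n Y = kc s C := by
    calc ∑ Y, n Y = Nat.card (Σ Y : I, {D : 𝒟 // ψ D = Y}) := Nat.card_sigma.symm
      _ = Nat.card 𝒟 := Nat.card_congr (Equiv.sigmaFiberEquiv ψ)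
      _ = kc s C := rfl
  -- representatives
  let f : I → G := fun Y => if h : ∃ y ∈ C, ConjClasses.mk y = Y.1 then Classical.choose h else rep Y.1
  have hfY : ∀ Y, ConjClasses.mk (f Y) = Y.1 := by
    intro Y
    by_cases h : ∃ y ∈ C, ConjClasses.mk y = Y.1
    · have : f Y = Classical.choose h := dif_pos h
      rw [this]
      exact (Classical.choose_spec h).2
    · have : f Y = rep Y.1 := dif_neg h
      rw [this]
      exact mk_rep _
  have hfC : ∀ Y, (∃ y ∈ C, ConjClasses.mk y = Y.1) → f Y ∈ C := by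
    intro Y h
    have : f Y = Classical.choose h := dif_pos h
    rw [this]
    exact (Classical.choose_spec h).1
  have hfe : ∀ Y, IsElt s (f Y) := by
    rintro ⟨_, g, rfl, hg⟩
    exact hg.of_isConj (ConjClasses.mk_eq_mk_iff_isConj.1 (hfY ⟨ConjClasses.mk g, g, rfl, hg⟩)).symm
  have hsum : kc (insert p s) G ≤ ∑ Y : I, kc {p} (Subgroup.centralizer ({f Y} : Set G)) := by
    apply kc_le_sum f (σ := s) (τ := {p})
    · intro y hy
      refine ⟨⟨ConjClasses.mk y, y, rfl, hy⟩, ?_⟩
      rw [← ConjClasses.mk_eq_mk_iff_isConj, hfY]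
    · intro g hg
      exact split_p hp g hg
  -- the local bound
  have hloc : ∀ Y : I, 2 * p ^ 2 * kc {p} (Subgroup.centralizer ({f Y} : Set G)) ≤
      Nat.card T * (2 * p + (p ^ 2 - 1) * n Y) := by
    intro Y
    have hp2 := hp.two_le
    have hpp : 1 ≤ p ^ 2 := Nat.one_le_pow _ _ hp.pos
    set y := f Y with hy
    set H := Subgroup.centralizer ({y} : Set G) with hH
    have hk1 : kc {p} H ≤ part {p} (Nat.card H) := kc_le_part {p} hsp
    have hdvd : part {p} (Nat.card H) ∣ Nat.card T := by
      rw [hT.card]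
      exact part_mono hsp Nat.card_pos.ne' (Subgroup.card_subgroup_dvd_card H)
    have hTp : ∃ b, Nat.card T = p ^ b := ⟨(Nat.card G).factorization p, by rw [hT.card]; simp [part]⟩
    by_cases heq : part {p} (Nat.card H) = Nat.card T
    · -- good
      have hgood : ∃ y' ∈ C, ConjClasses.mk y' = Y.1 := by
        obtain ⟨P⟩ : Nonempty (Sylow p H) := inferInstance
        have hP := nilHall_sylow P
        have hPc : Nat.card ((P : Subgroup H).map H.subtype) = Nat.card T := by
          rw [Subgroup.card_map_of_injective H.subtype_injective, hP.card, heq]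
        obtain ⟨x, hx⟩ := hT.conj_smul_eq hsp hPc
        refine ⟨x⁻¹ * y * x, ?_, ?_⟩
        · show x⁻¹ * y * x ∈ Subgroup.centralizer (T : Set G)
          rw [Subgroup.mem_centralizer_iff]
          intro t ht
          have h1 : x * t * x⁻¹ ∈ (P : Subgroup H).map H.subtype := by
            rw [hx]
            exact Subgroup.smul_mem_pointwise_smul t (MulAut.conj x) T ht
          obtain ⟨h, _, hh⟩ := Subgroup.mem_map.1 h1
          have h2 : (h : G) * y = y * h := Subgroup.mem_centralizer_singleton_iff.1 h.2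
          have h3 : (h : G) = x * t * x⁻¹ := hh
          rw [h3] at h2
          calc t * (x⁻¹ * y * x) = x⁻¹ * (x * t * x⁻¹ * y) * x := by group
            _ = x⁻¹ * (y * (x * t * x⁻¹)) * x := by rw [h2]
            _ = x⁻¹ * y * x * t := by group
        · rw [← hfY Y, ConjClasses.mk_eq_mk_iff_isConj, isConj_iff]
          exact ⟨x, by rw [← hy]; group⟩
      have hyC : y ∈ C := hfC Y hgood
      have hyY : ConjClasses.mk y = Y.1 := hfY Y
      have hyE : IsElt s (⟨y, hyC⟩ : C) := hcoe' _ (hfe Y)
      have hD1 : ψ ⟨ConjClasses.mk (⟨y, hyC⟩ : C), _, rfl, hyE⟩ = Y := by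
        apply Subtype.ext
        rw [hψ]
        exact hyY
      have hn1 : 1 ≤ n Y := by
        show 0 < Nat.card {D : 𝒟 // ψ D = Y}
        have : Nonempty {D : 𝒟 // ψ D = Y} := ⟨⟨_, hD1⟩⟩
        exact Nat.card_pos
      by_cases hn2 : 2 ≤ n Y
      · have h1 : kc {p} H ≤ Nat.card T := hk1.trans heq.le
        have h2 : (p ^ 2 - 1) * 2 ≤ (p ^ 2 - 1) * n Y := Nat.mul_le_mul_left _ hn2
        have h3 : 2 * p ^ 2 ≤ 2 * p + (p ^ 2 - 1) * n Y := by omega
        calc 2 * p ^ 2 * kc {p} H ≤ 2 * p ^ 2 * Nat.card T := Nat.mul_le_mul_left _ h1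
          _ = Nat.card T * (2 * p ^ 2) := mul_comm _ _
          _ ≤ _ := Nat.mul_le_mul_left _ h3
      · have hn : n Y = 1 := by omega
        have hsub : Subsingleton {D : 𝒟 // ψ D = Y} := (Nat.card_eq_one_iff_unique.1 hn).1
        have hTH : T ≤ H := by
          intro t ht
          rw [hH, Subgroup.mem_centralizer_singleton_iff]
          exact Subgroup.mem_centralizer_iff.1 hyC t ht
        set B : Subgroup H := T.subgroupOf H with hB
        set N : Subgroup H := (Subgroup.normalizer (T : Set G)).subgroupOf H with hN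
        have hBc : Nat.card B = Nat.card T :=
          Nat.card_congr (Subgroup.subgroupOfEquivOfLe hTH).toEquiv
        have hTn' : Group.IsNilpotent T := hT.nil
        have hBH : NilHall {p} B := by
          refine ⟨?_, by rw [hBc, heq]⟩
          exact Group.nilpotent_of_surjective (Subgroup.subgroupOfEquivOfLe hTH).symm.toMonoidHom
            (Subgroup.subgroupOfEquivOfLe hTH).symm.surjective
        have hNB : N ≤ Subgroup.normalizer (B : Set H) := by
          intro h hh
          rw [Subgroup.mem_normalizer_iff]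
          intro t
          rw [hB, Subgroup.mem_subgroupOf, Subgroup.mem_subgroupOf]
          rw [hN, Subgroup.mem_subgroupOf, Subgroup.mem_normalizer_iff] at hh
          have := hh (t : G)
          push_cast
          exact this
        have h1 := two_mul_kc_le (s := {p}) B N hNB (hBH.cov hsp)
        have h2 : B ⊓ Subgroup.centralizer (N : Set H) < B := by
          refine lt_of_le_of_ne inf_le_left ?_
          intro h
          obtain ⟨g, hg, t, ht, hne⟩ := hTn
          -- move g into the centralizer of y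
          have hgy : g * y * g⁻¹ ∈ C := by
            show g * y * g⁻¹ ∈ Subgroup.centralizer (T : Set G)
            rw [Subgroup.mem_centralizer_iff]
            intro t' ht'
            have hg' : g⁻¹ ∈ Subgroup.normalizer (T : Set G) := inv_mem hg
            have ht'' := (Subgroup.mem_normalizer_iff.1 hg' t').1 ht'
            rw [inv_inv] at ht''
            have h5 := Subgroup.mem_centralizer_iff.1 hyC _ ht''
            calc t' * (g * y * g⁻¹) = g * (g⁻¹ * t' * g * y) * g⁻¹ := by group
              _ = g * (y * (g⁻¹ * t' * g)) * g⁻¹ := by rw [h5]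
              _ = g * y * g⁻¹ * t' := by group
          have hyE2 : IsElt s (⟨g * y * g⁻¹, hgy⟩ : C) := by
            apply hcoe'
            exact (hfe Y).of_isConj (isConj_iff.2 ⟨g, rfl⟩)
          have hD2 : ψ ⟨ConjClasses.mk (⟨g * y * g⁻¹, hgy⟩ : C), _, rfl, hyE2⟩ = Y := by
            apply Subtype.ext
            rw [hψ, ← hyY, ConjClasses.mk_eq_mk_iff_isConj]
            exact (isConj_iff.2 ⟨g, rfl⟩).symm
          have h6 := congrArg (fun D => D.1.1) (hsub.elim ⟨_, hD1⟩ ⟨_, hD2⟩)
          simp only at h6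
          obtain ⟨c, hc⟩ := isConj_iff.1 (ConjClasses.mk_eq_mk_iff_isConj.1 h6)
          have hc' : (c : G) * y * (c : G)⁻¹ = g * y * g⁻¹ := by
            have := congrArg Subtype.val hc
            simpa using this
          have hcT := Subgroup.mem_centralizer_iff.1 c.2
          have hcN : (c : G) ∈ Subgroup.normalizer (T : Set G) := by
            rw [Subgroup.mem_normalizer_iff]
            intro h
            constructor
            · intro hh
              have := hcT h hh
              rw [← this, mul_assoc, mul_inv_cancel, mul_one]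
              exact hh
            · intro hh
              have := hcT _ hh
              have h7 : (c : G) * h * (c : G)⁻¹ = h := by
                have h8 : (c : G) * h * (c : G)⁻¹ * c = c * (c * h * (c : G)⁻¹) := this
                have h9 : (c : G) * h = c * (c * h * (c : G)⁻¹) := by
                  rw [← h8]; group
                exact (mul_left_cancel h9).symm
              rw [← h7]; exact hh
          have hz : (c : G)⁻¹ * g ∈ H := by
            rw [hH, Subgroup.mem_centralizer_singleton_iff]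
            calc (c : G)⁻¹ * g * y = (c : G)⁻¹ * (g * y * g⁻¹) * g := by group
              _ = (c : G)⁻¹ * ((c : G) * y * (c : G)⁻¹) * g := by rw [hc']
              _ = y * ((c : G)⁻¹ * g) := by group
          have hzN : (⟨(c : G)⁻¹ * g, hz⟩ : H) ∈ N := by
            rw [hN, Subgroup.mem_subgroupOf]
            exact mul_mem (inv_mem hcN) hg
          have htB : (⟨t, hTH ht⟩ : H) ∈ B ⊓ Subgroup.centralizer (N : Set H) := by
            rw [h, hB, Subgroup.mem_subgroupOf]
            exact ht
          have h10 := Subgroup.mem_centralizer_iff.1 htB.2 _ hzN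
          have h11 : (c : G)⁻¹ * g * t = t * ((c : G)⁻¹ * g) := by
            have := congrArg Subtype.val h10
            simpa using this
          apply hne
          have h12 : g * t * g⁻¹ ∈ T := (Subgroup.mem_normalizer_iff.1 hg t).1 ht
          have h13 : g * t * g⁻¹ * c = c * (g * t * g⁻¹) := hcT _ h12
          have h14 : g * t = c * t * ((c : G)⁻¹ * g) := by
            rw [mul_assoc, ← h11]; group
          have h15 : (c : G) * t = t * c := (hcT t ht).symm
          calc g * t * g⁻¹ = c * t * ((c : G)⁻¹ * g) * g⁻¹ := by rw [h14]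
            _ = c * t * (c : G)⁻¹ := by group
            _ = t := by rw [h15]; group
        have h3 := mul_card_le_of_lt h2 (m := p) (fun q hq hqA => by
          have := hBH.mem_of_dvd hsp hq hqA
          rw [Finset.mem_singleton] at this
          exact this.ge)
        rw [hBc] at h1 h3
        rw [hn, mul_one]
        have h4 : 2 * p * kc {p} H ≤ (p + 1) * Nat.card T := by nlinarith
        have h5 : p * (p + 1) ≤ 2 * p + (p ^ 2 - 1) := by
          zify [hpp]; nlinarith
        calc 2 * p ^ 2 * kc {p} H = p * (2 * p * kc {p} H) := by ring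
          _ ≤ p * ((p + 1) * Nat.card T) := Nat.mul_le_mul_left _ h4
          _ = Nat.card T * (p * (p + 1)) := by ring
          _ ≤ _ := Nat.mul_le_mul_left _ h5
    · -- bad
      have h1 : p * part {p} (Nat.card H) ≤ Nat.card T := by
        obtain ⟨k, hk⟩ := hdvd
        have hk1' : k ≠ 1 := fun h => heq (by rw [hk, h, mul_one])
        obtain ⟨b, hb⟩ := hTp
        obtain ⟨q, hq, hqk⟩ := Nat.exists_prime_and_dvd hk1'
        have hqp : q ∣ p ^ b := by
          rw [← hb, hk]; exact Dvd.dvd.mul_left hqk _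
        have hqp' : q = p := (Nat.prime_dvd_prime_iff_eq hq hp).1 (hq.dvd_of_dvd_pow hqp)
        have hT0 : 0 < Nat.card T := Nat.card_pos
        have hk0 : 0 < k := Nat.pos_of_ne_zero (fun h => by rw [h, mul_zero] at hk; omega)
        have : p ≤ k := hqp' ▸ Nat.le_of_dvd hk0 hqk
        calc p * part {p} (Nat.card H) ≤ k * part {p} (Nat.card H) := Nat.mul_le_mul_right _ this
          _ = Nat.card T := by rw [hk, mul_comm]
      calc 2 * p ^ 2 * kc {p} H ≤ 2 * p ^ 2 * part {p} (Nat.card H) := Nat.mul_le_mul_left _ hk1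
        _ = 2 * p * (p * part {p} (Nat.card H)) := by ring
        _ ≤ 2 * p * Nat.card T := Nat.mul_le_mul_left _ h1
        _ = Nat.card T * (2 * p) := by ring
        _ ≤ _ := Nat.mul_le_mul_left _ (Nat.le_add_right _ _)
  -- sum up
  have hkG : 2 * (p + 1) * kc s G ≤ (p + 1 + 1) * Nat.card A :=
    kc_le_of_not_central hs (m := p + 1) (fun q hq => hps q hq) A hA hAn
  have hcardI : Fintype.card I = kc s G := by
    rw [← Nat.card_eq_fintype_card]; rfl
  have htot : 2 * p ^ 2 * kc (insert p s) G ≤ Nat.card T * (2 * p * kc s G + (p ^ 2 - 1) * kc s C) := by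
    calc 2 * p ^ 2 * kc (insert p s) G ≤ 2 * p ^ 2 * ∑ Y : I, kc {p} (Subgroup.centralizer ({f Y} : Set G)) :=
          Nat.mul_le_mul_left _ hsum
      _ = ∑ Y : I, 2 * p ^ 2 * kc {p} (Subgroup.centralizer ({f Y} : Set G)) := Finset.mul_sum _ _ _
      _ ≤ ∑ Y : I, Nat.card T * (2 * p + (p ^ 2 - 1) * n Y) := Finset.sum_le_sum (fun Y _ => hloc Y)
      _ = Nat.card T * (2 * p * kc s G + (p ^ 2 - 1) * kc s C) := by
          have h1 : ∑ Y : I, (2 * p + (p ^ 2 - 1) * n Y) = 2 * p * kc s G + (p ^ 2 - 1) * kc s C := by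
            rw [Finset.sum_add_distrib, ← Finset.mul_sum Finset.univ n (p ^ 2 - 1), hnsum, Finset.sum_const,
              Finset.card_univ, hcardI, smul_eq_mul]
            ring
          rw [← Finset.mul_sum, h1]
  have hpp : 1 ≤ p ^ 2 := Nat.one_le_pow _ _ hp.pos
  have hp0 : 0 < p := hp.pos
  obtain ⟨w, hw⟩ : ∃ w, p ^ 2 = w + 1 := ⟨p ^ 2 - 1, by omega⟩
  have hw1 : p ^ 2 - 1 = w := by omega
  rw [hw1] at htot
  have hκ' : (p + 1) * kc s C ≤ Nat.card A := hκ
  set a := kc s G with ha
  set b := kc s C with hb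
  set K := kc (insert p s) G with hK
  set t := Nat.card T with ht
  set α := Nat.card A with hα
  -- 2 p^2 K ≤ t (2 p a + w b), 2 (p+1) a ≤ (p+2) α, (p+1) b ≤ α
  have h1 : (p + 1) * (2 * p * a + w * b) ≤ p * ((p + 1 + 1) * α) + w * α := by
    calc (p + 1) * (2 * p * a + w * b) = p * (2 * (p + 1) * a) + w * ((p + 1) * b) := by ring
      _ ≤ p * ((p + 1 + 1) * α) + w * α := Nat.add_le_add (Nat.mul_le_mul_left _ hkG) (Nat.mul_le_mul_left _ hκ')
  have h2 : p * ((p + 1 + 1) * α) + w * α ≤ 2 * p * (p + 1) * α := by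
    have : p * (p + 1 + 1) + w ≤ 2 * p * (p + 1) := by nlinarith
    calc p * ((p + 1 + 1) * α) + w * α = (p * (p + 1 + 1) + w) * α := by ring
      _ ≤ (2 * p * (p + 1)) * α := Nat.mul_le_mul_right _ this
  have h3 : (2 * p * (p + 1)) * (p * K) ≤ (2 * p * (p + 1)) * (t * α) := by
    calc (2 * p * (p + 1)) * (p * K) = (p + 1) * (2 * p ^ 2 * K) := by ring
      _ ≤ (p + 1) * (t * (2 * p * a + w * b)) := Nat.mul_le_mul_left _ htot
      _ = t * ((p + 1) * (2 * p * a + w * b)) := by ring
      _ ≤ t * (2 * p * (p + 1) * α) := Nat.mul_le_mul_left _ (h1.trans h2)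
      _ = (2 * p * (p + 1)) * (t * α) := by ring
  exact Nat.le_of_mul_le_mul_left h3 (by positivity)

end Cfsg.Agent.H518.PiCaseOne
end

-- part: H518/PiCaseTwo
section
/-!
# The normal complement case (for S4104, S4105)

`G = M B` with `B` an abelian Hall `σ`-subgroup and `M` a normal complement, `H ≤ M` a nilpotent Hall
`τ`-subgroup normalized but not centralized by `B`. Then `m * k(G) ≤ |B| |H|` for the classes of
`σ ∪ τ`-elements, `m` a lower bound of `σ`.
-/

set_option autoImplicit false

namespace Cfsg.Agent.H518.PiCaseTwo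

open Cfsg.Agent.H518.PiCount Cfsg.Agent.H518.PiHall Cfsg.Agent.H518.PiCaseOne
open scoped Pointwise

universe u

/-- the `K`-class of `x` -/
def cls {G : Type u} [Group G] (K : Subgroup G) (x : G) : Set G := {y | ∃ k ∈ K, k * x * k⁻¹ = y}

theorem card_cls_mul {G : Type u} [Group G] [Finite G] (K : Subgroup G) (x : G) :
    Nat.card (cls K x) * Nat.card (K ⊓ Subgroup.centralizer ({x} : Set G) : Subgroup G) = Nat.card K := by
  let act : MulAction K G := MulAction.compHom G ((MulAut.conj : G →* MulAut G).comp K.subtype)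
  have hsmul : ∀ (k : K) (y : G), @HSMul.hSMul K G G (@instHSMul K G act.toSMul) k y = k * y * (k : G)⁻¹ :=
    fun k y => rfl
  have h1 : Nat.card (@MulAction.orbit K G act.toSMul x) = (@MulAction.stabilizer K G _ act x).index := by
    rw [@MulAction.index_stabilizer K G _ act x, Nat.card_coe_set_eq]
  have h2 : @MulAction.orbit K G act.toSMul x = cls K x := by
    ext y
    constructor
    · rintro ⟨k, hk⟩
      exact ⟨k, k.2, hk⟩
    · rintro ⟨k, hk, hy⟩
      exact ⟨⟨k, hk⟩, hy⟩
  have h3 : Nat.card (@MulAction.stabilizer K G _ act x) =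
      Nat.card (K ⊓ Subgroup.centralizer ({x} : Set G) : Subgroup G) := by
    have h4 : @MulAction.stabilizer K G _ act x =
        (K ⊓ Subgroup.centralizer ({x} : Set G) : Subgroup G).subgroupOf K := by
      ext k
      rw [@MulAction.mem_stabilizer_iff K G _ act, Subgroup.mem_subgroupOf, Subgroup.mem_inf,
        Subgroup.mem_centralizer_singleton_iff, hsmul, mul_inv_eq_iff_eq_mul]
      exact ⟨fun h => ⟨k.2, h⟩, fun h => h.2⟩
    rw [h4]
    exact Nat.card_congr (Subgroup.subgroupOfEquivOfLe inf_le_left).toEquiv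
  rw [← h2, h1, ← h3, mul_comm]
  exact Subgroup.card_mul_index _

/-- A coprime automorphism `b` acting nontrivially on `H` has small centralizer. -/
theorem mul_card_centralizer_le {G : Type u} [Group G] [Finite G] (H : Subgroup G) (b : G)
    (hbH : b ∈ Subgroup.normalizer (H : Set G)) (hcop : (orderOf b).Coprime (Nat.card H))
    (hne : ∃ h ∈ H, h * b ≠ b * h) {m : ℕ} (hm : ∀ q : ℕ, q.Prime → q ∣ orderOf b → m ≤ q) :
    (m + 1) * Nat.card (H ⊓ Subgroup.centralizer ({b} : Set G) : Subgroup G) ≤ Nat.card H := by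
  have h1 := card_cls_mul H b
  rw [← h1]
  apply Nat.mul_le_mul_right
  obtain ⟨h, hh, hhb⟩ := hne
  set x := h * b * h⁻¹ with hx
  have hxb : x ≠ b := by
    intro h2
    apply hhb
    rw [hx, mul_inv_eq_iff_eq_mul] at h2
    exact h2
  have hxc : x ∈ cls H b := ⟨h, hh, rfl⟩
  have hbc : b ∈ cls H b := ⟨1, one_mem H, by simp⟩
  have hfin : Finite (cls H b) := inferInstance
  -- commuting elements of the class
  have hcomm : ∀ y ∈ cls H b, y * b = b * y → y = b := by
    rintro _ ⟨k, hk, rfl⟩ hc
    have hbk : b⁻¹ * (k * b * k⁻¹) ∈ H := by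
      have h5 : b⁻¹ * k * b ∈ H := by
        have := (Subgroup.mem_normalizer_iff.1 (inv_mem hbH) k).1 hk
        rwa [inv_inv] at this
      have h6 : b⁻¹ * (k * b * k⁻¹) = (b⁻¹ * k * b) * k⁻¹ := by group
      rw [h6]
      exact mul_mem h5 (inv_mem hk)
    have hC : Commute b⁻¹ (k * b * k⁻¹) := by
      have : Commute (k * b * k⁻¹) b := hc
      exact this.symm.inv_left
    have hpow : (b⁻¹ * (k * b * k⁻¹)) ^ orderOf b = 1 := by
      rw [hC.mul_pow, inv_pow, pow_orderOf_eq_one, inv_one, one_mul]
      have : orderOf (k * b * k⁻¹) = orderOf b := orderOf_conj k b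
      rw [← this, pow_orderOf_eq_one]
    have hord1 : orderOf (b⁻¹ * (k * b * k⁻¹)) ∣ orderOf b := orderOf_dvd_of_pow_eq_one hpow
    have hord2 : orderOf (b⁻¹ * (k * b * k⁻¹)) ∣ Nat.card H := by
      have := orderOf_dvd_natCard (⟨_, hbk⟩ : H)
      rwa [← Subgroup.orderOf_coe] at this
    have hord : orderOf (b⁻¹ * (k * b * k⁻¹)) = 1 := Nat.eq_one_of_dvd_coprimes hcop hord1 hord2
    rw [orderOf_eq_one_iff] at hord
    exact (inv_mul_eq_one.1 hord).symm
  -- the orbit of x under b
  have h2 := card_cls_mul (Subgroup.zpowers b) x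
  have h3 : cls (Subgroup.zpowers b) x ⊆ cls H b \ {b} := by
    rintro _ ⟨k, hk, rfl⟩
    have hkb : k * b = b * k := by
      obtain ⟨i, rfl⟩ := Subgroup.mem_zpowers_iff.1 hk
      exact ((Commute.refl b).zpow_left i)
    have hkN : k ∈ Subgroup.normalizer (H : Set G) := by
      obtain ⟨i, rfl⟩ := Subgroup.mem_zpowers_iff.1 hk
      exact zpow_mem hbH i
    refine ⟨⟨k * h * k⁻¹, (Subgroup.mem_normalizer_iff.1 hkN h).1 hh, ?_⟩, ?_⟩
    · have hkb' : k⁻¹ * b * k = b := by
        rw [mul_assoc, ← hkb]; group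
      calc k * h * k⁻¹ * b * (k * h * k⁻¹)⁻¹ = k * h * (k⁻¹ * b * k) * h⁻¹ * k⁻¹ := by group
        _ = k * h * b * h⁻¹ * k⁻¹ := by rw [hkb']
        _ = k * x * k⁻¹ := by rw [hx]; group
    · intro h7
      rw [Set.mem_singleton_iff] at h7
      apply hxb
      have : x = k⁻¹ * b * k := by rw [← h7]; group
      rw [this, mul_assoc, ← hkb]; group
  have h4 : m ≤ Nat.card (cls (Subgroup.zpowers b) x) := by
    have hne1 : Nat.card (cls (Subgroup.zpowers b) x) ≠ 1 := by
      intro h5
      have hsub : Subsingleton (cls (Subgroup.zpowers b) x) := (Nat.card_eq_one_iff_unique.1 h5).1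
      have e1 : x ∈ cls (Subgroup.zpowers b) x := ⟨1, one_mem _, by simp⟩
      have e2 : b * x * b⁻¹ ∈ cls (Subgroup.zpowers b) x := ⟨b, Subgroup.mem_zpowers b, rfl⟩
      have e3 : b * x * b⁻¹ = x := congrArg Subtype.val (hsub.elim (⟨_, e2⟩ : cls (Subgroup.zpowers b) x) ⟨_, e1⟩)
      apply hxb
      apply hcomm x hxc
      rw [mul_inv_eq_iff_eq_mul] at e3
      exact e3.symm
    obtain ⟨q, hq, hqd⟩ := Nat.exists_prime_and_dvd hne1
    have h6 : q ∣ orderOf b := by
      rw [← Nat.card_zpowers]
      exact hqd.trans ⟨_, h2.symm⟩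
    have hpos : 0 < Nat.card (cls (Subgroup.zpowers b) x) := by
      rcases Nat.eq_zero_or_pos (Nat.card (cls (Subgroup.zpowers b) x)) with h0 | h0
      · rw [h0, zero_mul] at h2
        exact absurd h2.symm Nat.card_pos.ne'
      · exact h0
    exact (hm q hq h6).trans (Nat.le_of_dvd hpos hqd)
  have h5 : Nat.card (cls (Subgroup.zpowers b) x) + 1 ≤ Nat.card (cls H b) := by
    rw [Nat.card_coe_set_eq, Nat.card_coe_set_eq]
    have e1 : (cls H b \ {b}).ncard + 1 = (cls H b).ncard := Set.ncard_sdiff_singleton_add_one hbc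
    rw [← e1]
    exact Nat.add_le_add_right (Set.ncard_le_ncard h3) 1
  omega

/-- A nilpotent Hall subgroup central in its normalizer has a normal complement. -/
theorem exists_normal_compl {G : Type u} [Group G] [Finite G] {s : Finset ℕ} (hs : ∀ q ∈ s, q.Prime)
    (A : Subgroup G) (hA : NilHall s A)
    (hc : ∀ g ∈ Subgroup.normalizer (A : Set G), ∀ a ∈ A, g * a * g⁻¹ = a) :
    ∃ M : Subgroup G, M.Normal ∧ M.IsComplement' A := by
  refine (Cfsg.Agent.S0079.result A hA.nil (hA.coprime_index hs)).2 ?_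
  rintro x hx _ hy ⟨g, rfl⟩
  have hab : ∀ a ∈ A, ∀ b ∈ A, a * b * a⁻¹ = b := fun a ha b hb => hc a (Subgroup.le_normalizer ha) b hb
  refine ⟨1, one_mem _, ?_⟩
  set y := g * x * g⁻¹ with hydef
  set C := Subgroup.centralizer ({y} : Set G) with hC
  have hAC : A ≤ C := by
    intro a ha
    rw [hC, Subgroup.mem_centralizer_singleton_iff]
    have := hab a ha y hy
    rwa [mul_inv_eq_iff_eq_mul] at this
  have hgA : MulAut.conj g • A ≤ C := by
    intro z hz
    rw [Subgroup.mem_pointwise_smul_iff_inv_smul_mem, ← map_inv, MulAut.smul_def, MulAut.conj_apply, inv_inv] at hz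
    rw [hC, Subgroup.mem_centralizer_singleton_iff]
    have := hab _ hz x hx
    rw [mul_inv_eq_iff_eq_mul] at this
    calc z * y = g * (g⁻¹ * z * g * x) * g⁻¹ := by rw [hydef]; group
      _ = g * (x * (g⁻¹ * z * g)) * g⁻¹ := by rw [this]
      _ = y * z := by rw [hydef]; group
  -- A is nilpotent Hall in C
  have hAc : Nat.card (A.subgroupOf C) = Nat.card A := Nat.card_congr (Subgroup.subgroupOfEquivOfLe hAC).toEquiv
  have hAn : Group.IsNilpotent A := hA.nil
  have hcop : (Nat.card (A.subgroupOf C)).Coprime (A.subgroupOf C).index := by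
    have h1 := hA.coprime_index hs
    rw [hAc]
    have h2 : (A.subgroupOf C).index ∣ A.index := by
      have : A.relIndex C ∣ A.index := Subgroup.relIndex_dvd_index_of_le hAC |> fun h => h
      exact this
    exact Nat.Coprime.coprime_dvd_right h2 h1
  have hnil : Group.IsNilpotent (A.subgroupOf C) :=
    Group.nilpotent_of_surjective (Subgroup.subgroupOfEquivOfLe hAC).symm.toMonoidHom
      (Subgroup.subgroupOfEquivOfLe hAC).symm.surjective
  have hcard : Nat.card (MulAut.conj g • A : Subgroup G) = Nat.card A :=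
    Nat.card_congr (Subgroup.equivSMul (MulAut.conj g) A).symm.toEquiv
  have hKc : Nat.card ((MulAut.conj g • A : Subgroup G).subgroupOf C) = Nat.card A := by
    rw [Nat.card_congr (Subgroup.subgroupOfEquivOfLe hgA).toEquiv, hcard]
  obtain ⟨c, hcc⟩ := Cfsg.Agent.S0581.result (A.subgroupOf C) ((MulAut.conj g • A : Subgroup G).subgroupOf C) hnil
    hcop (fun p _ hpd => by rw [hAc]; rw [hKc] at hpd; exact hpd)
  -- (c⁻¹ g) normalizes A
  have hcg : ∀ a ∈ A, ((c : G)⁻¹ * g) * a * ((c : G)⁻¹ * g)⁻¹ ∈ A := by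
    intro a ha
    have h1 : g * a * g⁻¹ ∈ (MulAut.conj g • A : Subgroup G) :=
      Subgroup.smul_mem_pointwise_smul a (MulAut.conj g) A ha
    have h2 : (⟨g * a * g⁻¹, hgA h1⟩ : C) ∈ (MulAut.conj g • A : Subgroup G).subgroupOf C := by
      rw [Subgroup.mem_subgroupOf]; exact h1
    have h3 := hcc h2
    rw [Subgroup.mem_pointwise_smul_iff_inv_smul_mem, ← map_inv, MulAut.smul_def, MulAut.conj_apply,
      Subgroup.mem_subgroupOf] at h3
    have h4 : ((c : G)⁻¹ * g) * a * ((c : G)⁻¹ * g)⁻¹ = (c : G)⁻¹ * (g * a * g⁻¹) * c := by group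
    rw [h4]
    simpa using h3
  have hN : (c : G)⁻¹ * g ∈ Subgroup.normalizer (A : Set G) := by
    rw [Subgroup.mem_normalizer_iff]
    intro h
    refine ⟨hcg h, fun hh => ?_⟩
    have hmap : (A.map (MulAut.conj ((c : G)⁻¹ * g)).toMonoidHom) = A := by
      apply Subgroup.eq_of_le_of_card_ge
      · rintro _ ⟨a, ha, rfl⟩
        exact hcg a ha
      · rw [Subgroup.card_map_of_injective (MulAut.conj ((c : G)⁻¹ * g)).injective]
    rw [← hmap] at hh
    obtain ⟨a, ha, hae⟩ := Subgroup.mem_map.1 hh
    have : a = h := (MulAut.conj ((c : G)⁻¹ * g)).injective hae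
    rwa [← this]
  have h5 := hc _ hN x hx
  have h6 : (c : G)⁻¹ * y * c = x := by
    rw [← h5, hydef]; group
  have h7 : (c : G) * y = y * c := Subgroup.mem_centralizer_singleton_iff.1 c.2
  rw [one_mul, inv_one, mul_one]
  calc x = (c : G)⁻¹ * y * c := h6.symm
    _ = (c : G)⁻¹ * (y * c) := by group
    _ = (c : G)⁻¹ * (c * y) := by rw [h7]
    _ = y := by group

end Cfsg.Agent.H518.PiCaseTwo
end

-- part: H518/PiSD
section
/-!
# The normal complement case, second part (for S4104, S4105)
-/

set_option autoImplicit false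

namespace Cfsg.Agent.H518.PiSD

open Cfsg.Agent.H518.PiCount Cfsg.Agent.H518.PiHall Cfsg.Agent.H518.PiCaseOne Cfsg.Agent.H518.PiCaseTwo
open scoped Pointwise

universe u

theorem isNilpotent_of_le {G : Type u} [Group G] {A B : Subgroup G} (h : A ≤ B) (hB : Group.IsNilpotent B) :
    Group.IsNilpotent A :=
  Group.nilpotent_of_surjective (Subgroup.subgroupOfEquivOfLe h).toMonoidHom
    (Subgroup.subgroupOfEquivOfLe h).surjective

theorem isNilpotent_subgroupOf {G : Type u} [Group G] {A B : Subgroup G} (h : A ≤ B) (hA : Group.IsNilpotent A) :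
    Group.IsNilpotent (A.subgroupOf B) :=
  Group.nilpotent_of_surjective (Subgroup.subgroupOfEquivOfLe h).symm.toMonoidHom
    (Subgroup.subgroupOfEquivOfLe h).symm.surjective

/-- elements of order coprime to the index of a normal subgroup lie in it. -/
theorem mem_of_coprime_index {G : Type u} [Group G] (M : Subgroup G) [M.Normal] (z : G)
    (h : (orderOf z).Coprime M.index) : z ∈ M := by
  have h1 : orderOf (z : G ⧸ M) ∣ orderOf z := orderOf_map_dvd (QuotientGroup.mk' M) z
  have h2 : orderOf (z : G ⧸ M) ∣ M.index := orderOf_dvd_natCard _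
  have h3 := Nat.eq_one_of_dvd_coprimes h h1 h2
  rw [orderOf_eq_one_iff] at h3
  exact (QuotientGroup.eq_one_iff z).1 h3

/-- the fixed points of `b` in a `b`-invariant nilpotent Hall subgroup of `M` form a Hall subgroup of `C_M(b)`. -/
theorem nilHall_fixed {G : Type u} [Group G] [Finite G] {τ : Finset ℕ} (hτ : ∀ q ∈ τ, q.Prime)
    (M H : Subgroup G) [hM : M.Normal] (hHM : H ≤ M) (hH : NilHall τ H) (b : G)
    (hbH : b ∈ Subgroup.normalizer (H : Set G)) (hcop : (orderOf b).Coprime (Nat.card M)) :
    NilHall τ ((H ⊓ Subgroup.centralizer ({b} : Set G) : Subgroup G).subgroupOf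
      (M ⊓ Subgroup.centralizer ({b} : Set G))) := by
  classical
  set Z := Subgroup.centralizer ({b} : Set G) with hZ
  set D := H ⊓ Z with hD
  set L := M ⊓ Z with hL
  have hDL : D ≤ L := inf_le_inf_right _ hHM
  have hDc : Nat.card (D.subgroupOf L) = Nat.card D := Nat.card_congr (Subgroup.subgroupOfEquivOfLe hDL).toEquiv
  refine ⟨isNilpotent_subgroupOf hDL (isNilpotent_of_le inf_le_left hH.nil), ?_⟩
  rw [hDc]
  apply Nat.dvd_antisymm
  · refine dvd_part hτ Nat.card_pos.ne' (Subgroup.card_dvd_of_le hDL) ?_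
    intro q hq hqd
    exact hH.mem_of_dvd hτ hq (hqd.trans (Subgroup.card_dvd_of_le inf_le_left))
  · rw [← Nat.factorization_le_iff_dvd (part_ne_zero hτ _) Nat.card_pos.ne']
    intro q
    rw [factorization_part hτ]
    split_ifs with hq
    swap
    · exact Nat.zero_le _
    have hqp : q.Prime := hτ q hq
    have hqf : Fact q.Prime := ⟨hqp⟩
    -- a Sylow subgroup of L
    obtain ⟨U⟩ : Nonempty (Sylow q L) := inferInstance
    set U' : Subgroup G := (U : Subgroup L).map L.subtype with hU'
    have hU'L : U' ≤ L := by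
      rintro _ ⟨x, _, rfl⟩
      exact x.2
    have hU'p : IsPGroup q U' := U.isPGroup'.map L.subtype
    have hAM : Subgroup.zpowers b ≤ Subgroup.normalizer (M : Set G) := by
      rw [Subgroup.normalizer_eq_top_iff.2 hM]
      exact le_top
    have hcopA : (Nat.card (Subgroup.zpowers b)).Coprime (Nat.card M) := by
      rw [Nat.card_zpowers]; exact hcop
    have hsol : Group.IsSolvable (Subgroup.zpowers b) ∨ Group.IsSolvable M := Or.inl inferInstance
    have hAU : Subgroup.zpowers b ≤ Subgroup.normalizer (U' : Set G) := by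
      rw [Subgroup.zpowers_le, Subgroup.mem_normalizer_iff]
      intro h
      constructor
      · intro hh
        have : h * b = b * h := Subgroup.mem_centralizer_singleton_iff.1 (hU'L hh).2
        rw [← this, mul_assoc, mul_inv_cancel, mul_one]
        exact hh
      · intro hh
        have : b * h * b⁻¹ * b = b * (b * h * b⁻¹) := Subgroup.mem_centralizer_singleton_iff.1 (hU'L hh).2
        have h9 : h = b * h * b⁻¹ := by
          have h8 : b * h = b * (b * h * b⁻¹) := by rw [← this]; group
          exact mul_left_cancel h8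
        rw [h9]; exact hh
    obtain ⟨P, hUP, hAP⟩ := Cfsg.Agent.S0025.result (Subgroup.zpowers b) M hAM hcopA hsol q U'
      (hU'L.trans inf_le_left) hU'p hAU
    -- the Sylow subgroup of H
    have hAH : Subgroup.zpowers b ≤ Subgroup.normalizer (H : Set G) := by
      rw [Subgroup.zpowers_le]; exact hbH
    have hcopH : (Nat.card (Subgroup.zpowers b)).Coprime (Nat.card H) :=
      hcopA.coprime_dvd_right (Subgroup.card_dvd_of_le hHM)
    obtain ⟨P', hP'⟩ := Cfsg.Agent.S0023.result (Subgroup.zpowers b) H hAH hcopH (Or.inl inferInstance) q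
    set Q' : Subgroup G := (P' : Subgroup H).map H.subtype with hQ'
    have hQ'H : Q' ≤ H := by
      rintro _ ⟨x, _, rfl⟩
      exact x.2
    have hQ'M : Q' ≤ M := hQ'H.trans hHM
    have hQ'c : Nat.card Q' = q ^ (Nat.card M).factorization q := by
      rw [hQ', Subgroup.card_map_of_injective H.subtype_injective, P'.card_eq_multiplicity]
      congr 1
      apply le_antisymm
      · exact (Nat.factorization_le_iff_dvd Nat.card_pos.ne' Nat.card_pos.ne').2 (Subgroup.card_dvd_of_le hHM) q
      · rw [hH.card, factorization_part hτ, if_pos hq]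
        exact (Nat.factorization_le_iff_dvd Nat.card_pos.ne' Nat.card_pos.ne').2 (Subgroup.card_subgroup_dvd_card M) q
    have hQc : Nat.card (Q'.subgroupOf M) = q ^ (Nat.card M).factorization q := by
      rw [Nat.card_congr (Subgroup.subgroupOfEquivOfLe hQ'M).toEquiv, hQ'c]
    let Q : Sylow q M := Sylow.ofCard (Q'.subgroupOf M) hQc
    have hQmap : (Q : Subgroup M).map M.subtype = Q' := by
      show (Q'.subgroupOf M).map M.subtype = Q'
      rw [Subgroup.subgroupOf_map_subtype]
      exact inf_eq_left.2 hQ'M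
    obtain ⟨c, hc, hcP⟩ := Cfsg.Agent.S0024.result (Subgroup.zpowers b) M hAM hcopA hsol q P Q hAP
      (by rw [hQmap]; exact hP')
    -- conjugate of U' lies in D
    have hcb : (c : G) * b = b * c := by
      have := Subgroup.mem_centralizer_iff.1 hc b (Subgroup.mem_zpowers b)
      exact this.symm
    have hsub : U'.map (MulAut.conj (c : G)).toMonoidHom ≤ D := by
      rintro _ ⟨x, hx, rfl⟩
      have hxc : (MulAut.conj (c : G)).toMonoidHom x = c * x * (c : G)⁻¹ := rfl
      rw [hxc]
      have hxP := hUP hx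
      obtain ⟨y, hy, hyx⟩ := Subgroup.mem_map.1 hxP
      refine ⟨?_, ?_⟩
      · have h1 : c * y * c⁻¹ ∈ (Q : Subgroup M) := by
          rw [← hcP]
          exact Subgroup.smul_mem_pointwise_smul y (MulAut.conj c) (P : Subgroup M) hy
        have h2 : ((c * y * c⁻¹ : M) : G) ∈ (Q : Subgroup M).map M.subtype := ⟨_, h1, rfl⟩
        rw [hQmap] at h2
        have h3 : ((c * y * c⁻¹ : M) : G) = c * x * (c : G)⁻¹ := by
          rw [← hyx]; rfl
        rw [h3] at h2
        exact hQ'H h2
      · have h4 : x * b = b * x := Subgroup.mem_centralizer_singleton_iff.1 (hU'L hx).2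
        refine Subgroup.mem_centralizer_singleton_iff.2 ?_
        have h5 : (c : G)⁻¹ * b = b * (c : G)⁻¹ := by
          have : (c : G)⁻¹ * b = (c : G)⁻¹ * (b * c) * (c : G)⁻¹ := by group
          rw [this, ← hcb]; group
        calc (c : G) * x * (c : G)⁻¹ * b = c * x * ((c : G)⁻¹ * b) := by group
          _ = c * (x * b) * (c : G)⁻¹ := by rw [h5]; group
          _ = (c * b) * x * (c : G)⁻¹ := by rw [h4]; group
          _ = b * (c * x * (c : G)⁻¹) := by rw [hcb]; group
    have hUc : Nat.card U' = q ^ (Nat.card L).factorization q := by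
      rw [hU', Subgroup.card_map_of_injective L.subtype_injective, U.card_eq_multiplicity]
    have hdvd : q ^ (Nat.card L).factorization q ∣ Nat.card D := by
      have h6 : Nat.card (U'.map (MulAut.conj (c : G)).toMonoidHom) = Nat.card U' :=
        Subgroup.card_map_of_injective (f := (MulAut.conj (c : G)).toMonoidHom) (MulAut.conj (c : G)).injective
      rw [← hUc, ← h6]
      exact Subgroup.card_dvd_of_le hsub
    exact (hqp.pow_dvd_iff_le_factorization Nat.card_pos.ne').1 hdvd

/-- **The normal complement case.** -/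
theorem caseSD {G : Type u} [Group G] [Finite G] {π σ τ : Finset ℕ} (hσ : ∀ q ∈ σ, q.Prime)
    (hτ : ∀ q ∈ τ, q.Prime) (hdisj : ∀ q ∈ σ, q ∉ τ)
    (hsplit : ∀ g : G, IsElt π g → ∃ y x : G, y * x = g ∧ Commute y x ∧ IsElt σ y ∧ IsElt τ x)
    (B H : Subgroup G) (hB : NilHall σ B) (hBab : ∀ a ∈ B, ∀ b ∈ B, a * b = b * a) (hH : NilHall τ H)
    (M : Subgroup G) [hM : M.Normal] (hMB : M.IsComplement' B) (hHM : H ≤ M)
    (hBH : B ≤ Subgroup.normalizer (H : Set G)) {m : ℕ} (hm1 : 1 ≤ m) (hm : ∀ q ∈ σ, m ≤ q)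
    (hnc : ∃ b ∈ B, ∃ h ∈ H, h * b ≠ b * h) : m * kc π G ≤ Nat.card B * Nat.card H := by
  classical
  have hBfin : Fintype B := Fintype.ofFinite B
  -- orders
  have hMi : M.index = Nat.card B := hMB.symm.index_eq_card
  have hMBc : Nat.card M * Nat.card B = Nat.card G := hMB.card_mul_card
  have hcopBM : (Nat.card B).Coprime (Nat.card M) := by
    have := hB.coprime_index hσ
    have hi : B.index = Nat.card M := by
      have h1 := B.card_mul_index
      rw [← hMBc, mul_comm] at h1
      exact Nat.eq_of_mul_eq_mul_right Nat.card_pos h1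
    rwa [hi] at this
  have hordB : ∀ b ∈ B, orderOf b ∣ Nat.card B := by
    intro b hb
    have := orderOf_dvd_natCard (⟨b, hb⟩ : B)
    rwa [← Subgroup.orderOf_coe] at this
  -- classes of τ-elements in centralizers
  have hcov : ∀ b ∈ B, ∀ z : Subgroup.centralizer ({b} : Set G), IsElt τ z →
      ∃ v : Subgroup.centralizer ({b} : Set G), (v : G) ∈ H ∧ IsConj z v := by
    intro b hb z hz
    have hzM : (z : G) ∈ M := by
      apply mem_of_coprime_index
      rw [hMi]
      refine Nat.coprime_of_dvd fun q hq hq1 hq2 => ?_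
      rw [Subgroup.orderOf_coe] at hq1
      exact hdisj q (hB.mem_of_dvd hσ hq hq2) (hz q hq hq1)
    have hD := nilHall_fixed hτ M H hHM hH b (hBH hb) (hcopBM.coprime_dvd_left (hordB b hb))
    set L := M ⊓ Subgroup.centralizer ({b} : Set G) with hL
    have hzL : (z : G) ∈ L := ⟨hzM, z.2⟩
    have hzE : IsElt τ (⟨(z : G), hzL⟩ : L) := by
      refine hz.of_dvd ?_
      rw [← Subgroup.orderOf_coe, ← Subgroup.orderOf_coe]
    obtain ⟨v, hv, hzv⟩ := hD.cov hτ ⟨(z : G), hzL⟩ hzE
    refine ⟨⟨(v : G), v.2.2⟩, ?_, ?_⟩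
    · rw [Subgroup.mem_subgroupOf] at hv
      exact hv.1
    · obtain ⟨c, hc⟩ := isConj_iff.1 hzv
      rw [isConj_iff]
      refine ⟨⟨(c : G), c.2.2⟩, ?_⟩
      apply Subtype.ext
      have := congrArg Subtype.val hc
      simpa using this
  -- the sum
  have hsum : kc π G ≤ ∑ b : B, kc τ (Subgroup.centralizer ({(b : G)} : Set G)) := by
    apply kc_le_sum (fun b : B => (b : G)) (σ := σ) (τ := τ)
    · intro y hy
      obtain ⟨v, hv, hyv⟩ := hB.cov hσ y hy
      exact ⟨⟨v, hv⟩, hyv⟩
    · exact hsplit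
  -- B₀ = C_B(H)
  set B₀ : Subgroup G := B ⊓ Subgroup.centralizer (H : Set G) with hB₀
  have hB₀B : B₀ < B := by
    refine lt_of_le_of_ne inf_le_left ?_
    intro h
    obtain ⟨b, hb, x, hx, hne⟩ := hnc
    rw [← h] at hb
    exact hne (Subgroup.mem_centralizer_iff.1 hb.2 x hx)
  have hB₀c : m * Nat.card B₀ ≤ Nat.card B :=
    mul_card_le_of_lt hB₀B (fun q hq hqd => hm q (hB.mem_of_dvd hσ hq hqd))
  have hcopBH : (Nat.card B).Coprime (Nat.card H) := hcopBM.coprime_dvd_right (Subgroup.card_dvd_of_le hHM)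
  have hfix : ∀ b ∈ B, b ∉ B₀ →
      (m + 1) * Nat.card (H ⊓ Subgroup.centralizer ({b} : Set G) : Subgroup G) ≤ Nat.card H := by
    intro b hb hb0
    apply mul_card_centralizer_le H b (hBH hb) (hcopBH.coprime_dvd_left (hordB b hb))
    · by_contra hcon
      push Not at hcon
      apply hb0
      refine ⟨hb, ?_⟩
      show b ∈ Subgroup.centralizer (H : Set G)
      rw [Subgroup.mem_centralizer_iff]
      exact hcon
    · intro q hq hqd
      exact hm q (hB.mem_of_dvd hσ hq (hqd.trans (hordB b hb)))
  -- H₀ = C_H(B)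
  set H₀ : Subgroup G := H ⊓ Subgroup.centralizer (B : Set G) with hH₀
  have hH₀c : (m + 1) * Nat.card H₀ ≤ Nat.card H := by
    obtain ⟨b, hb, x, hx, hne⟩ := hnc
    have hb0 : b ∉ B₀ := by
      intro h
      exact hne (Subgroup.mem_centralizer_iff.1 h.2 x hx)
    have h1 := hfix b hb hb0
    have h2 : H₀ ≤ H ⊓ Subgroup.centralizer ({b} : Set G) := by
      refine inf_le_inf_left _ (Subgroup.centralizer_le ?_)
      rw [Set.singleton_subset_iff]
      exact hb
    have h3 : Nat.card H₀ ≤ Nat.card (H ⊓ Subgroup.centralizer ({b} : Set G) : Subgroup G) :=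
      Nat.le_of_dvd Nat.card_pos (Subgroup.card_dvd_of_le h2)
    exact (Nat.mul_le_mul_left _ h3).trans h1
  -- bounds for each b
  have hb1 : ∀ b : B, (b : G) ∉ B₀ →
      (m + 1) * kc τ (Subgroup.centralizer ({(b : G)} : Set G)) ≤ Nat.card H := by
    intro b hb0
    refine le_trans (Nat.mul_le_mul_left _ ?_) (hfix b b.2 hb0)
    set Z := Subgroup.centralizer ({(b : G)} : Set G) with hZ
    have h1 := mul_kc_le (H := Z) (s := τ) ((H.subgroupOf Z : Subgroup Z) : Set Z)
      ((H.subgroupOf Z : Subgroup Z) : Set Z) 1 le_rfl (fun z hz => by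
        obtain ⟨v, hv, hzv⟩ := hcov b b.2 z hz
        exact ⟨v, hv, hzv⟩) (fun v hv hv' => absurd hv hv')
    have h2 : Nat.card (((H.subgroupOf Z : Subgroup Z) : Set Z)) = Nat.card (H ⊓ Z : Subgroup G) := by
      have h3 : Nat.card ((H ⊓ Z : Subgroup G).subgroupOf Z) = Nat.card (H ⊓ Z : Subgroup G) :=
        Nat.card_congr (Subgroup.subgroupOfEquivOfLe inf_le_right).toEquiv
      rw [Subgroup.inf_subgroupOf_right] at h3
      exact h3
    rw [h2] at h1
    simpa using h1
  have hb2 : ∀ b : B, (b : G) ∈ B₀ →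
      (m + 1) * kc τ (Subgroup.centralizer ({(b : G)} : Set G)) ≤ 2 * Nat.card H := by
    intro b hb0
    set Z := Subgroup.centralizer ({(b : G)} : Set G) with hZ
    have hHZ : H ≤ Z := by
      intro x hx
      rw [hZ, Subgroup.mem_centralizer_singleton_iff]
      exact Subgroup.mem_centralizer_iff.1 hb0.2 x hx
    have hBZ : B ≤ Z := by
      intro x hx
      rw [hZ, Subgroup.mem_centralizer_singleton_iff]
      exact hBab x hx b b.2
    have h1 := mul_kc_le (H := Z) (s := τ) ((H.subgroupOf Z : Subgroup Z) : Set Z)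
      ((H₀.subgroupOf Z : Subgroup Z) : Set Z) m hm1 (fun z hz => by
        obtain ⟨v, hv, hzv⟩ := hcov b b.2 z hz
        exact ⟨v, hv, hzv⟩) ?_
    · have h2 : Nat.card (((H.subgroupOf Z : Subgroup Z) : Set Z)) = Nat.card H :=
        Nat.card_congr (Subgroup.subgroupOfEquivOfLe hHZ).toEquiv
      have h3 : Nat.card (((H₀.subgroupOf Z : Subgroup Z) : Set Z)) = Nat.card H₀ :=
        Nat.card_congr (Subgroup.subgroupOfEquivOfLe ((inf_le_left : H₀ ≤ H).trans hHZ)).toEquiv
      rw [h2, h3] at h1
      obtain ⟨w, rfl⟩ : ∃ w, m = w + 1 := ⟨m - 1, by omega⟩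
      have h4 : w + 1 - 1 = w := rfl
      rw [h4] at h1
      -- (w+1) k ≤ |H| + w |H₀|, (w+2) |H₀| ≤ |H|
      have h5 : (w + 1) * ((w + 1 + 1) * kc τ Z) ≤ (w + 1) * (2 * Nat.card H) := by
        calc (w + 1) * ((w + 1 + 1) * kc τ Z) = (w + 1 + 1) * ((w + 1) * kc τ Z) := by ring
          _ ≤ (w + 1 + 1) * (Nat.card H + w * Nat.card H₀) := Nat.mul_le_mul_left _ h1
          _ = (w + 1 + 1) * Nat.card H + w * ((w + 1 + 1) * Nat.card H₀) := by ring
          _ ≤ (w + 1 + 1) * Nat.card H + w * Nat.card H := Nat.add_le_add_left (Nat.mul_le_mul_left _ hH₀c) _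
          _ = (w + 1) * (2 * Nat.card H) := by ring
      exact Nat.le_of_mul_le_mul_left h5 (Nat.succ_pos _)
    · intro v hv hv0
      have hvH : (v : G) ∈ H := hv
      have hex : ∃ a ∈ B, a * (v : G) ≠ v * a := by
        by_contra hcon
        push Not at hcon
        apply hv0
        show (v : G) ∈ H₀
        refine ⟨hvH, ?_⟩
        show (v : G) ∈ Subgroup.centralizer (B : Set G)
        rw [Subgroup.mem_centralizer_iff]
        exact hcon
      obtain ⟨a, ha, hav⟩ := hex
      -- the B-class of v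
      have h6 := card_cls_mul B (v : G)
      have h7 : Nat.card (cls B (v : G)) ≤ Nat.card {w : Z // w ∈ ((H.subgroupOf Z : Subgroup Z) : Set Z) ∧ IsConj v w} := by
        have hmem : ∀ y : cls B (v : G), (y : G) ∈ Z ∧ (y : G) ∈ H := by
          rintro ⟨_, k, hk, rfl⟩
          exact ⟨mul_mem (mul_mem (hBZ hk) v.2) (inv_mem (hBZ hk)),
            (Subgroup.mem_normalizer_iff.1 (hBH hk) v).1 hvH⟩
        have hconj : ∀ y : cls B (v : G), IsConj v (⟨(y : G), (hmem y).1⟩ : Z) := by
          rintro ⟨_, k, hk, rfl⟩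
          exact isConj_iff.2 ⟨⟨k, hBZ hk⟩, rfl⟩
        refine Nat.card_le_card_of_injective
          (fun y : cls B (v : G) => (⟨⟨(y : G), (hmem y).1⟩, (hmem y).2, hconj y⟩ :
            {w : Z // w ∈ ((H.subgroupOf Z : Subgroup Z) : Set Z) ∧ IsConj v w})) ?_
        intro y y' h
        have := congrArg (fun w => ((w.1 : Z) : G)) h
        exact Subtype.ext this
      refine le_trans ?_ h7
      have hpos : 0 < Nat.card (cls B (v : G)) := by
        rcases Nat.eq_zero_or_pos (Nat.card (cls B (v : G))) with h0 | h0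
        · rw [h0, zero_mul] at h6
          exact absurd h6.symm Nat.card_pos.ne'
        · exact h0
      have hne1 : Nat.card (cls B (v : G)) ≠ 1 := by
        intro h8
        have hsub : Subsingleton (cls B (v : G)) := (Nat.card_eq_one_iff_unique.1 h8).1
        have e1 : (v : G) ∈ cls B (v : G) := ⟨1, one_mem _, by simp⟩
        have e2 : a * v * a⁻¹ ∈ cls B (v : G) := ⟨a, ha, rfl⟩
        have e3 : a * v * a⁻¹ = (v : G) := congrArg Subtype.val (hsub.elim (⟨_, e2⟩ : cls B (v : G)) ⟨_, e1⟩)
        apply hav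
        rwa [mul_inv_eq_iff_eq_mul] at e3
      obtain ⟨q, hq, hqd⟩ := Nat.exists_prime_and_dvd hne1
      have h9 : q ∣ Nat.card B := hqd.trans ⟨_, h6.symm⟩
      exact (hm q (hB.mem_of_dvd hσ hq h9)).trans (Nat.le_of_dvd hpos hqd)
  -- sum up
  have hfilter : (Finset.univ.filter (fun b : B => (b : G) ∈ B₀)).card = Nat.card B₀ := by
    rw [← Fintype.card_subtype, ← Nat.card_eq_fintype_card]
    exact Nat.card_congr (Subgroup.subgroupOfEquivOfLe (inf_le_left : B₀ ≤ B)).toEquiv
  have hcB : Fintype.card B = Nat.card B := Nat.card_eq_fintype_card.symm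
  have htot : (m + 1) * kc π G ≤ Nat.card H * (Nat.card B + Nat.card B₀) := by
    calc (m + 1) * kc π G ≤ (m + 1) * ∑ b : B, kc τ (Subgroup.centralizer ({(b : G)} : Set G)) :=
          Nat.mul_le_mul_left _ hsum
      _ = ∑ b : B, (m + 1) * kc τ (Subgroup.centralizer ({(b : G)} : Set G)) := Finset.mul_sum _ _ _
      _ ≤ ∑ b : B, (Nat.card H + if (b : G) ∈ B₀ then Nat.card H else 0) := by
          apply Finset.sum_le_sum
          intro b _
          split_ifs with h
          · have := hb2 b h; omega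
          · have := hb1 b h; omega
      _ = Nat.card H * (Nat.card B + Nat.card B₀) := by
          rw [Finset.sum_add_distrib, Finset.sum_const, Finset.card_univ, hcB, smul_eq_mul,
            ← Finset.sum_filter, Finset.sum_const, hfilter, smul_eq_mul]
          ring
  have h10 : (m + 1) * (m * kc π G) ≤ (m + 1) * (Nat.card B * Nat.card H) := by
    calc (m + 1) * (m * kc π G) = m * ((m + 1) * kc π G) := by ring
      _ ≤ m * (Nat.card H * (Nat.card B + Nat.card B₀)) := Nat.mul_le_mul_left _ htot
      _ = Nat.card H * (m * Nat.card B + m * Nat.card B₀) := by ring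
      _ ≤ Nat.card H * (m * Nat.card B + Nat.card B) :=
          Nat.mul_le_mul_left _ (Nat.add_le_add_left hB₀c _)
      _ = (m + 1) * (Nat.card B * Nat.card H) := by ring
  exact Nat.le_of_mul_le_mul_left h10 (Nat.succ_pos _)

end Cfsg.Agent.H518.PiSD
end

-- part: H518/PiMain
section
/-!
# Many classes of `π`-elements force a nilpotent Hall `π`-subgroup

`main`: if `G` has no nilpotent Hall `s`-subgroup and `m` is a lower bound of `s` (a finite set of primes), then
`m * k_s(G) ≤ |G|_s`. The proof is elementary (induction on `s`).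
-/

set_option autoImplicit false

namespace Cfsg.Agent.H518.PiMain

open Cfsg.Agent.H518.PiCount Cfsg.Agent.H518.PiHall Cfsg.Agent.H518.PiCaseOne Cfsg.Agent.H518.PiCaseTwo
  Cfsg.Agent.H518.PiSD
open scoped Pointwise

universe u

/-- two commuting nilpotent Hall subgroups generate one. -/
theorem exists_nilHall_insert {G : Type u} [Group G] [Finite G] {p : ℕ} (hp : p.Prime) {s : Finset ℕ}
    (hs : ∀ q ∈ s, q.Prime) (hps : p ∉ s) (T A : Subgroup G) (hT : NilHall {p} T) (hA : NilHall s A)
    (hcomm : ∀ t ∈ T, ∀ a ∈ A, t * a = a * t) : ∃ B : Subgroup G, NilHall (insert p s) B := by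
  have hsp : ∀ q ∈ ({p} : Finset ℕ), q.Prime := by
    intro q hq
    rw [Finset.mem_singleton] at hq
    rw [hq]; exact hp
  have hTn : Group.IsNilpotent T := hT.nil
  have hAn : Group.IsNilpotent A := hA.nil
  let φ : T × A →* G := MonoidHom.noncommCoprod T.subtype A.subtype (fun t a => hcomm t t.2 a a.2)
  have hcop : (Nat.card T).Coprime (Nat.card A) := by
    refine Nat.coprime_of_dvd fun q hq h1 h2 => ?_
    have h3 := hT.mem_of_dvd hsp hq h1
    rw [Finset.mem_singleton] at h3
    exact hps (h3 ▸ hA.mem_of_dvd hs hq h2)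
  have hinj : Function.Injective φ := by
    refine (MonoidHom.noncommCoprod_injective T.subtype A.subtype (fun t a => hcomm t t.2 a a.2)).2 ?_
    refine ⟨T.subtype_injective, A.subtype_injective, ?_⟩
    rw [Subgroup.range_subtype, Subgroup.range_subtype, disjoint_iff]
    exact Subgroup.inf_eq_bot_of_coprime hcop
  refine ⟨φ.range, ?_, ?_⟩
  · exact Group.nilpotent_of_surjective φ.rangeRestrict φ.rangeRestrict_surjective
  · rw [part_insert hps, Nat.card_congr (MonoidHom.ofInjective hinj).symm.toEquiv, Nat.card_prod, hT.card, hA.card]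
    simp [part]

/-- **Main theorem.** -/
theorem main (s : Finset ℕ) : (∀ q ∈ s, q.Prime) → ∀ (G : Type u) [Group G] [Finite G],
    (¬ ∃ A : Subgroup G, NilHall s A) → ∀ m : ℕ, (∀ q ∈ s, m ≤ q) →
      m * kc s G ≤ part s (Nat.card G) := by
  classical
  induction s using Finset.induction_on_min with
  | empty =>
    intro _ G _ _ hno m _
    exfalso
    apply hno
    refine ⟨⊥, inferInstance, ?_⟩
    simp [part]
  | insert p s hmin ih =>
    intro hprime G _ _ hno m hm
    have hp : p.Prime := hprime p (Finset.mem_insert_self _ _)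
    have hpf : Fact p.Prime := ⟨hp⟩
    have hs : ∀ q ∈ s, q.Prime := fun q hq => hprime q (Finset.mem_insert_of_mem hq)
    have ih' := ih hs
    have hps : p ∉ s := fun h => lt_irrefl _ (hmin p h)
    have hsp : ∀ q ∈ ({p} : Finset ℕ), q.Prime := by
      intro q hq
      rw [Finset.mem_singleton] at hq
      rw [hq]; exact hp
    have hmp : m ≤ p := hm p (Finset.mem_insert_self _ _)
    refine (Nat.mul_le_mul_right _ hmp).trans ?_
    obtain ⟨T⟩ : Nonempty (Sylow p G) := inferInstance
    have hT := nilHall_sylow T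
    have hTc : Nat.card (T : Subgroup G) = p ^ (Nat.card G).factorization p := T.card_eq_multiplicity
    have hpart : part (insert p s) (Nat.card G) = Nat.card (T : Subgroup G) * part s (Nat.card G) := by
      rw [part_insert hps, hTc]
    rw [hpart]
    have hmin' : ∀ q ∈ s, p + 1 ≤ q := fun q hq => hmin q hq
    by_cases hA : ∃ A : Subgroup G, NilHall s A
    swap
    · -- no nilpotent Hall `s`-subgroup
      have h1 := ih' G hA (p + 1) hmin'
      let I : Type u := {Y : ConjClasses G // ∃ g : G, ConjClasses.mk g = Y ∧ IsElt s g}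
      have hFI : Fintype I := Fintype.ofFinite I
      have hsum : kc (insert p s) G ≤ ∑ Y : I, kc {p} (Subgroup.centralizer ({rep Y.1} : Set G)) := by
        apply kc_le_sum (fun Y : I => rep Y.1) (σ := s) (τ := {p})
        · intro y hy
          exact ⟨⟨ConjClasses.mk y, y, rfl, hy⟩, isConj_rep y⟩
        · intro g hg
          exact split_p hp g hg
      have hcardI : Fintype.card I = kc s G := by
        rw [← Nat.card_eq_fintype_card]; rfl
      have h2 : kc (insert p s) G ≤ kc s G * Nat.card (T : Subgroup G) := by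
        refine hsum.trans ?_
        rw [← hcardI, ← Finset.card_univ, ← smul_eq_mul, ← Finset.sum_const]
        apply Finset.sum_le_sum
        intro Y _
        refine (kc_le_part {p} hsp).trans ?_
        rw [hT.card]
        exact Nat.le_of_dvd (Nat.pos_of_ne_zero (part_ne_zero hsp _))
          (part_mono hsp Nat.card_pos.ne' (Subgroup.card_subgroup_dvd_card _))
      calc p * kc (insert p s) G ≤ p * (kc s G * Nat.card (T : Subgroup G)) := Nat.mul_le_mul_left _ h2
        _ ≤ (p + 1) * (kc s G * Nat.card (T : Subgroup G)) := Nat.mul_le_mul_right _ (Nat.le_succ p)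
        _ = Nat.card (T : Subgroup G) * ((p + 1) * kc s G) := by ring
        _ ≤ _ := Nat.mul_le_mul_left _ h1
    obtain ⟨A, hA⟩ := hA
    rw [← hA.card]
    have hno' : ∀ T' A' : Subgroup G, NilHall {p} T' → NilHall s A' → ∃ t ∈ T', ∃ a ∈ A', t * a ≠ a * t := by
      intro T' A' hT' hA'
      by_contra hcon
      push Not at hcon
      exact hno (exists_nilHall_insert hp hs hps T' A' hT' hA' hcon)
    by_cases hAc : ∀ g ∈ Subgroup.normalizer (A : Set G), ∀ a ∈ A, g * a * g⁻¹ = a
    · -- A central in its normalizer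
      obtain ⟨M, hMn, hMA⟩ := exists_normal_compl hs A hA hAc
      have hMi : M.index = Nat.card A := hMA.symm.index_eq_card
      have hMAc : Nat.card M * Nat.card A = Nat.card G := hMA.card_mul_card
      have hAi : A.index = Nat.card M := by
        have h1 := A.card_mul_index
        rw [← hMAc, mul_comm] at h1
        exact Nat.eq_of_mul_eq_mul_right Nat.card_pos h1
      have hcop : (Nat.card A).Coprime (Nat.card M) := by
        have := hA.coprime_index hs
        rwa [hAi] at this
      have hpA : ¬ p ∣ Nat.card A := fun h => hps (hA.mem_of_dvd hs hp h)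
      have hAab : ∀ a ∈ A, ∀ b ∈ A, a * b = b * a := by
        intro a ha b hb
        have := hAc a (Subgroup.le_normalizer ha) b hb
        rwa [mul_inv_eq_iff_eq_mul] at this
      have hAM : A ≤ Subgroup.normalizer (M : Set G) := by
        rw [Subgroup.normalizer_eq_top_iff.2 hMn]
        exact le_top
      have hAsol : Group.IsSolvable A := by
        have : Group.IsNilpotent A := hA.nil
        infer_instance
      obtain ⟨P, hP⟩ := Cfsg.Agent.S0023.result A M hAM hcop (Or.inl hAsol) p
      set H : Subgroup G := (P : Subgroup M).map M.subtype with hHdef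
      have hHM : H ≤ M := by
        rintro _ ⟨x, _, rfl⟩
        exact x.2
      have hHc : Nat.card H = Nat.card (T : Subgroup G) := by
        rw [hHdef, Subgroup.card_map_of_injective M.subtype_injective, P.card_eq_multiplicity, hTc, ← hMAc,
          Nat.factorization_mul Nat.card_pos.ne' Nat.card_pos.ne', Finsupp.add_apply,
          Nat.factorization_eq_zero_of_not_dvd hpA, add_zero]
      have hH : NilHall {p} H := by
        refine ⟨?_, by rw [hHc, hT.card]⟩
        have : IsPGroup p H := P.isPGroup'.map M.subtype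
        exact this.isNilpotent
      obtain ⟨t, ht, a, ha, hne⟩ := hno' H A hH hA
      have h1 := caseSD (π := insert p s) (σ := s) (τ := {p}) hs hsp
        (fun q hq h => by rw [Finset.mem_singleton] at h; exact hps (h ▸ hq)) (fun g hg => split_p hp g hg)
        A H hA hAab hH M hMA hHM hP (m := p + 1) (by omega) hmin' ⟨a, ha, t, ht, hne⟩
      rw [hHc] at h1
      calc p * kc (insert p s) G ≤ (p + 1) * kc (insert p s) G := Nat.mul_le_mul_right _ (Nat.le_succ p)
        _ ≤ Nat.card A * Nat.card (T : Subgroup G) := h1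
        _ = _ := mul_comm _ _
    by_cases hTc' : ∀ g ∈ Subgroup.normalizer ((T : Subgroup G) : Set G), ∀ a ∈ (T : Subgroup G), g * a * g⁻¹ = a
    · -- T central in its normalizer
      obtain ⟨M, hMn, hMT⟩ := exists_normal_compl hsp (T : Subgroup G) hT hTc'
      have hMi : M.index = Nat.card (T : Subgroup G) := hMT.symm.index_eq_card
      have hTab : ∀ a ∈ (T : Subgroup G), ∀ b ∈ (T : Subgroup G), a * b = b * a := by
        intro a ha b hb
        have := hTc' a (Subgroup.le_normalizer ha) b hb
        rwa [mul_inv_eq_iff_eq_mul] at this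
      have hle : ∀ A' : Subgroup G, NilHall s A' → A' ≤ M := by
        intro A' hA' x hx
        apply mem_of_coprime_index
        rw [hMi]
        refine Nat.coprime_of_dvd fun q hq hq1 hq2 => ?_
        have h3 := hT.mem_of_dvd hsp hq hq2
        rw [Finset.mem_singleton] at h3
        have h4 := hA'.isElt_of_mem hs hx q hq hq1
        exact hps (h3 ▸ h4)
      -- T fixes a conjugate of A
      have hfixed : ∃ A' : Subgroup G, NilHall s A' ∧ (T : Subgroup G) ≤ Subgroup.normalizer (A' : Set G) := by
        -- the action of T on the M-conjugates of A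
        let Ω : Set (Subgroup G) := {X | ∃ x ∈ M, X = MulAut.conj x • A}
        have hΩ : ∀ X ∈ Ω, NilHall s X := by
          rintro _ ⟨x, _, rfl⟩
          refine ⟨?_, ?_⟩
          · have : Group.IsNilpotent A := hA.nil
            exact Group.nilpotent_of_surjective (Subgroup.equivSMul (MulAut.conj x) A).toMonoidHom
              (Subgroup.equivSMul (MulAut.conj x) A).surjective
          · rw [← Nat.card_congr (Subgroup.equivSMul (MulAut.conj x) A).toEquiv, hA.card]
        have hcardX : ∀ X : Subgroup G, NilHall s X → X ∈ Ω := by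
          intro X hX
          -- both A and X are nilpotent Hall in M
          have hAM := hle A hA
          have hXM := hle X hX
          have hpartM : part s (Nat.card M) = part s (Nat.card G) := by
            apply Nat.dvd_antisymm (part_mono hs Nat.card_pos.ne' (Subgroup.card_subgroup_dvd_card M))
            rw [← hA.card]
            exact dvd_part hs Nat.card_pos.ne' (Subgroup.card_dvd_of_le hAM) (fun q hq hqd => hA.mem_of_dvd hs hq hqd)
          have hA1 : NilHall s (A.subgroupOf M) :=
            ⟨isNilpotent_subgroupOf hAM hA.nil, by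
              rw [Nat.card_congr (Subgroup.subgroupOfEquivOfLe hAM).toEquiv, hA.card, hpartM]⟩
          have hX1 : Nat.card (X.subgroupOf M) = Nat.card (A.subgroupOf M) := by
            rw [Nat.card_congr (Subgroup.subgroupOfEquivOfLe hXM).toEquiv,
              Nat.card_congr (Subgroup.subgroupOfEquivOfLe hAM).toEquiv, hX.card, hA.card]
          obtain ⟨x, hx⟩ := hA1.conj_smul_eq hs hX1
          refine ⟨(x : G), x.2, ?_⟩
          have hcA : Nat.card (MulAut.conj (x : G) • A : Subgroup G) = Nat.card A :=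
            Nat.card_congr (Subgroup.equivSMul (MulAut.conj (x : G)) A).symm.toEquiv
          refine Subgroup.eq_of_le_of_card_ge ?_ (by rw [hcA, hA.card, hX.card])
          intro y hy
          have hy1 : (⟨y, hXM hy⟩ : M) ∈ X.subgroupOf M := by rw [Subgroup.mem_subgroupOf]; exact hy
          rw [hx, Subgroup.mem_pointwise_smul_iff_inv_smul_mem, ← map_inv, MulAut.smul_def, MulAut.conj_apply,
            Subgroup.mem_subgroupOf] at hy1
          rw [Subgroup.mem_pointwise_smul_iff_inv_smul_mem, ← map_inv, MulAut.smul_def, MulAut.conj_apply]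
          simpa using hy1
        have hsm : ∀ (t : G) (X : Subgroup G), X ∈ Ω → MulAut.conj t • X ∈ Ω := by
          intro t X hX
          apply hcardX
          have hX' := hΩ X hX
          refine ⟨?_, ?_⟩
          · have : Group.IsNilpotent X := hX'.nil
            exact Group.nilpotent_of_surjective (Subgroup.equivSMul (MulAut.conj t) X).toMonoidHom
              (Subgroup.equivSMul (MulAut.conj t) X).surjective
          · rw [← Nat.card_congr (Subgroup.equivSMul (MulAut.conj t) X).toEquiv, hX'.card]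
        let act : MulAction (T : Subgroup G) Ω :=
          { smul := fun t X => ⟨MulAut.conj (t : G) • X.1, hsm t X.1 X.2⟩
            one_smul := fun X => Subtype.ext (by
              show MulAut.conj ((1 : (T : Subgroup G)) : G) • X.1 = X.1
              rw [Subgroup.coe_one, map_one, one_smul])
            mul_smul := fun t t' X => Subtype.ext (by
              show MulAut.conj ((t * t' : (T : Subgroup G)) : G) • X.1 =
                MulAut.conj (t : G) • (MulAut.conj (t' : G) • X.1)
              rw [Subgroup.coe_mul, map_mul, mul_smul]) }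
        have hcardΩ : ¬ p ∣ Nat.card Ω := by
          -- |Ω| divides |M|, which is prime to p
          let act' : MulAction M Ω :=
            { smul := fun t X => ⟨MulAut.conj (t : G) • X.1, hsm t X.1 X.2⟩
              one_smul := fun X => Subtype.ext (by
                show MulAut.conj ((1 : M) : G) • X.1 = X.1
                rw [Subgroup.coe_one, map_one, one_smul])
              mul_smul := fun t t' X => Subtype.ext (by
                show MulAut.conj ((t * t' : M) : G) • X.1 =
                  MulAut.conj (t : G) • (MulAut.conj (t' : G) • X.1)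
                rw [Subgroup.coe_mul, map_mul, mul_smul]) }
          have hAΩ : A ∈ Ω := hcardX A hA
          have horb : @MulAction.orbit M Ω act'.toSMul ⟨A, hAΩ⟩ = Set.univ := by
            ext X
            simp only [Set.mem_univ, iff_true]
            obtain ⟨x, hx, hX⟩ := X.2
            exact ⟨⟨x, hx⟩, Subtype.ext hX.symm⟩
          have h1 : (@MulAction.stabilizer M Ω _ act' ⟨A, hAΩ⟩).index = Nat.card Ω := by
            rw [@MulAction.index_stabilizer M Ω _ act', horb, Set.ncard_univ]
          intro hpd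
          rw [← h1] at hpd
          have h2 : p ∣ Nat.card M := hpd.trans (Subgroup.index_dvd_card _)
          have h3 : Nat.card M * Nat.card (T : Subgroup G) = Nat.card G := hMT.card_mul_card
          have h4 : (Nat.card (T : Subgroup G)).Coprime (T : Subgroup G).index := hT.coprime_index hsp
          have h5 : (T : Subgroup G).index = Nat.card M := by
            have h1 := (T : Subgroup G).card_mul_index
            rw [← h3, mul_comm] at h1
            exact Nat.eq_of_mul_eq_mul_right Nat.card_pos h1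
          exact T.not_dvd_index (h5.symm ▸ h2)
        obtain ⟨X, hX⟩ := @IsPGroup.nonempty_fixed_point_of_prime_not_dvd_card p (T : Subgroup G) _ T.isPGroup' _
          Ω act hcardΩ
        refine ⟨X.1, hΩ X.1 X.2, ?_⟩
        intro t ht
        have h1 : MulAut.conj t • X.1 = X.1 := congrArg Subtype.val (hX ⟨t, ht⟩)
        rw [Subgroup.mem_normalizer_iff]
        intro h
        constructor
        · intro hh
          have := Subgroup.smul_mem_pointwise_smul h (MulAut.conj t) X.1 hh
          rw [h1] at this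
          exact this
        · intro hh
          rw [← h1] at hh
          exact (Subgroup.smul_mem_pointwise_smul_iff (a := MulAut.conj t)).1 hh
      obtain ⟨A', hA', hTA'⟩ := hfixed
      obtain ⟨t, ht, a, ha, hne⟩ := hno' T A' hT hA'
      have h1 := caseSD (π := insert p s) (σ := {p}) (τ := s) hsp hs
        (fun q hq h => by rw [Finset.mem_singleton] at hq; exact hps (hq ▸ h)) (fun g hg => split_p' hp g hg)
        (T : Subgroup G) A' hT hTab hA' M hMT (hle A' hA') hTA' (m := p) hp.one_le
        (fun q hq => by rw [Finset.mem_singleton] at hq; exact hq.ge) ⟨t, ht, a, ha, hne.symm⟩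
      rwa [hA'.card, ← hA.card] at h1
    -- the main case
    push Not at hAc hTc'
    apply caseI hp hs hmin (T : Subgroup G) A hT hA hTc' hAc
    set C : Subgroup G := Subgroup.centralizer ((T : Subgroup G) : Set G) with hC
    have hdvd : part s (Nat.card C) ∣ Nat.card A := by
      rw [hA.card]
      exact part_mono hs Nat.card_pos.ne' (Subgroup.card_subgroup_dvd_card C)
    by_cases heq : part s (Nat.card C) = Nat.card A
    · rw [← heq]
      apply ih' C _ (p + 1) hmin'
      rintro ⟨E, hE⟩
      have hE' : NilHall s (E.map C.subtype) := by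
        refine ⟨?_, ?_⟩
        · have : Group.IsNilpotent E := hE.nil
          exact Group.nilpotent_of_surjective (E.equivMapOfInjective C.subtype C.subtype_injective).toMonoidHom
            (E.equivMapOfInjective C.subtype C.subtype_injective).surjective
        · rw [Subgroup.card_map_of_injective C.subtype_injective, hE.card, heq, hA.card]
      obtain ⟨t, ht, a, ha, hne⟩ := hno' T _ hT hE'
      obtain ⟨c, _, rfl⟩ := Subgroup.mem_map.1 ha
      exact hne (Subgroup.mem_centralizer_iff.1 c.2 t ht)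
    · have h1 : kc s C ≤ part s (Nat.card C) := kc_le_part s hs
      refine (Nat.mul_le_mul_left _ h1).trans ?_
      obtain ⟨k, hk⟩ := hdvd
      have hk1 : k ≠ 1 := fun h => heq (by rw [hk, h, mul_one])
      obtain ⟨q, hq, hqk⟩ := Nat.exists_prime_and_dvd hk1
      have hA0 : 0 < Nat.card A := Nat.card_pos
      have hk0 : 0 < k := Nat.pos_of_ne_zero (fun h => by rw [h, mul_zero] at hk; omega)
      have hqs : q ∈ s := hA.mem_of_dvd hs hq (by rw [hk]; exact Dvd.dvd.mul_left hqk _)
      have h2 : p + 1 ≤ k := (hmin' q hqs).trans (Nat.le_of_dvd hk0 hqk)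
      calc (p + 1) * part s (Nat.card C) ≤ k * part s (Nat.card C) := Nat.mul_le_mul_right _ h2
        _ = Nat.card A := by rw [hk, mul_comm]

end Cfsg.Agent.H518.PiMain
end

-- part: H518/PiFinal
section
/-!
# Commuting probability bounds and the interface for S4104, S4105
-/

set_option autoImplicit false

namespace Cfsg.Agent.H518.PiFinal

open Cfsg Cfsg.Agent.H518.PiCount Cfsg.Agent.H518.PiHall Cfsg.Agent.H518.PiCaseOne
open scoped Pointwise

universe u

/-- If all prime divisors of `|H|` are at least `p` and `|H'| > p` then `p k(H) ≤ |H|`. -/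
theorem mul_card_conjClasses_le {H : Type u} [Group H] [Finite H] {p : ℕ} (hp : 2 ≤ p)
    (hH : ∀ q : ℕ, q.Prime → q ∣ Nat.card H → p ≤ q) (hcomm : p + 1 ≤ Nat.card (commutator H)) :
    p * Nat.card (ConjClasses H) ≤ Nat.card H := by
  classical
  have : Fintype H := Fintype.ofFinite H
  have : Finite (IrrCharacter H) := Characters.Core.finite_irr
  have hfI : Fintype (IrrCharacter H) := Fintype.ofFinite _
  have hdeg : ∀ χ : IrrCharacter H, ∃ d : ℕ, (χ : H → ℂ) 1 = d ∧ d ∣ Nat.card H := by
    rintro ⟨χ, n, ρ, hirr, rfl⟩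
    have : ρ.IsIrreducible := hirr
    exact ⟨Module.finrank ℂ (Fin n → ℂ), ρ.char_one, Cfsg.Agent.S0135.result ρ⟩
  choose d hd hdd using hdeg
  have hsum : ∑ χ : IrrCharacter H, d χ ^ 2 = Nat.card H := by
    have h := Cfsg.Agent.S0134.result (G := H)
    rw [finsum_eq_sum_of_fintype] at h
    have h2 : ∑ χ : IrrCharacter H, ((d χ : ℂ)) ^ 2 = (Nat.card H : ℂ) := by
      rw [← h]
      exact Finset.sum_congr rfl (fun χ _ => by rw [hd χ])
    exact_mod_cast h2
  have hlin : (Finset.univ.filter (fun χ : IrrCharacter H => d χ = 1)).card = (commutator H).index := by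
    rw [← Cfsg.Agent.S0154.result (G := H), Nat.card_eq_fintype_card, Fintype.card_subtype]
    congr 1
    ext χ
    simp only [Finset.mem_filter, Finset.mem_univ, true_and]
    rw [hd χ]
    norm_cast
  have hk : Fintype.card (IrrCharacter H) = Nat.card (ConjClasses H) := by
    rw [← Nat.card_eq_fintype_card, Cfsg.Agent.S0133.result]
  set n := (commutator H).index with hn
  set k := Nat.card (ConjClasses H) with hkdef
  have hdle : ∀ χ : IrrCharacter H, p ^ 2 ≤ d χ ^ 2 + (if d χ = 1 then p ^ 2 - 1 else 0) := by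
    intro χ
    have hp2 : 1 ≤ p ^ 2 := Nat.one_le_pow _ _ (by omega)
    split_ifs with h
    · rw [h]; omega
    · obtain ⟨q, hq, hqd⟩ := Nat.exists_prime_and_dvd h
      have h1 := hH q hq (hqd.trans (hdd χ))
      have hpos : 0 < d χ := Nat.pos_of_ne_zero (fun h0 => by
        have := hdd χ
        rw [h0, zero_dvd_iff] at this
        exact Nat.card_pos.ne' this)
      have h2 : p ≤ d χ := h1.trans (Nat.le_of_dvd hpos hqd)
      exact (Nat.pow_le_pow_left h2 2).trans (Nat.le_add_right _ _)
  have hmain : p ^ 2 * k ≤ Nat.card H + (p ^ 2 - 1) * n := by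
    calc p ^ 2 * k = ∑ χ : IrrCharacter H, p ^ 2 := by
          rw [Finset.sum_const, Finset.card_univ, hk, smul_eq_mul, mul_comm]
      _ ≤ ∑ χ : IrrCharacter H, (d χ ^ 2 + (if d χ = 1 then p ^ 2 - 1 else 0)) :=
          Finset.sum_le_sum (fun χ _ => hdle χ)
      _ = Nat.card H + (p ^ 2 - 1) * n := by
          rw [Finset.sum_add_distrib, hsum, ← Finset.sum_filter, Finset.sum_const, hlin, smul_eq_mul, mul_comm n]
  have hidx : Nat.card (commutator H) * n = Nat.card H := (commutator H).card_mul_index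
  have h1 : (p + 1) * n ≤ Nat.card H := by
    rw [← hidx]
    exact Nat.mul_le_mul_right _ hcomm
  obtain ⟨w, hw⟩ : ∃ w, p ^ 2 = w + 1 := ⟨p ^ 2 - 1, by
    have : 1 ≤ p ^ 2 := Nat.one_le_pow _ _ (by omega)
    omega⟩
  have hw1 : p ^ 2 - 1 = w := by omega
  rw [hw1] at hmain
  have h2 : (p * (p + 1)) * (p * k) ≤ (p * (p + 1)) * Nat.card H := by
    calc (p * (p + 1)) * (p * k) = (p + 1) * (p ^ 2 * k) := by ring
      _ ≤ (p + 1) * (Nat.card H + w * n) := Nat.mul_le_mul_left _ hmain
      _ = (p + 1) * Nat.card H + w * ((p + 1) * n) := by ring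
      _ ≤ (p + 1) * Nat.card H + w * Nat.card H := Nat.add_le_add_left (Nat.mul_le_mul_left _ h1) _
      _ = (p + (w + 1)) * Nat.card H := by ring
      _ = (p * (p + 1)) * Nat.card H := by rw [← hw]; ring
  exact Nat.le_of_mul_le_mul_left h2 (by positivity)

/-- the centre of a nonabelian group has index at least `p ^ 2`. -/
theorem sq_mul_card_center_le {A : Type u} [Group A] [Finite A] {p : ℕ}
    (hA : ∀ q : ℕ, q.Prime → q ∣ Nat.card A → p ≤ q) (hab : ¬ ∀ a b : A, a * b = b * a) :
    p ^ 2 * Nat.card (Subgroup.center A) ≤ Nat.card A := by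
  have hmul := (Subgroup.center A).card_mul_index
  set n := (Subgroup.center A).index with hn
  have hn1 : n ≠ 1 := by
    intro h
    apply hab
    intro a b
    have h1 : Subgroup.center A = ⊤ := Subgroup.index_eq_one.1 (hn ▸ h)
    have h2 : b ∈ Subgroup.center A := by rw [h1]; exact Subgroup.mem_top b
    exact Subgroup.mem_center_iff.1 h2 a
  have hn0 : n ≠ 0 := Subgroup.index_ne_zero_of_finite
  have hnd : n ∣ Nat.card A := ⟨_, by rw [← hmul, mul_comm]⟩
  obtain ⟨q, hq, r, hr⟩ := Nat.exists_prime_and_dvd hn1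
  have hpq : p ≤ q := hA q hq ((Dvd.intro r hr.symm).trans hnd)
  have hr1 : r ≠ 1 := by
    intro h
    rw [h, mul_one] at hr
    apply hab
    have hcyc : IsCyclic (A ⧸ Subgroup.center A) := by
      have : Fact q.Prime := ⟨hq⟩
      apply isCyclic_of_prime_card (p := q)
      rw [← hr]
      rfl
    intro a b
    exact commutative_of_cyclic_center_quotient (QuotientGroup.mk' (Subgroup.center A))
      (by rw [QuotientGroup.ker_mk']) a b
  have hr0 : 0 < r := Nat.pos_of_ne_zero (fun h => hn0 (by rw [hr, h, mul_zero]))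
  obtain ⟨q', hq', hqr⟩ := Nat.exists_prime_and_dvd hr1
  have hpr : p ≤ r := (hA q' hq' ((hqr.trans (Dvd.intro_left q hr.symm)).trans hnd)).trans (Nat.le_of_dvd hr0 hqr)
  have h1 : p ^ 2 ≤ n := by
    rw [hr, sq]
    exact Nat.mul_le_mul hpq hpr
  calc p ^ 2 * Nat.card (Subgroup.center A) ≤ n * Nat.card (Subgroup.center A) := Nat.mul_le_mul_right _ h1
    _ = Nat.card A := by rw [← hmul, mul_comm]

/-- Bound for the number of classes of `s`-elements when the nilpotent Hall subgroup is not abelian. -/
theorem kc_le_of_not_comm {G : Type u} [Group G] [Finite G] {s : Finset ℕ} (hs : ∀ q ∈ s, q.Prime) {p : ℕ}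
    (hp : 1 ≤ p) (hps : ∀ q ∈ s, p ≤ q) (A : Subgroup G) (hA : NilHall s A) (hab : ¬ ∀ a b : A, a * b = b * a) :
    p ^ 3 * kc s G ≤ Nat.card A * (p ^ 2 + p - 1) := by
  have hpA : ∀ q : ℕ, q.Prime → q ∣ Nat.card A → p ≤ q := fun q hq hqd => hps q (hA.mem_of_dvd hs hq hqd)
  have h1 := sq_mul_card_center_le hpA hab
  have hinj := A.subtype_injective
  set Z : Subgroup G := (Subgroup.center A).map A.subtype with hZ
  have hZc : Nat.card Z = Nat.card (Subgroup.center A) := Subgroup.card_map_of_injective hinj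
  have h2 := mul_kc_le (H := G) (s := s) (A : Set G) (Z : Set G) p hp (hA.cov hs) ?_
  · have h2' : p * kc s G ≤ Nat.card A + (p - 1) * Nat.card (Subgroup.center A) := by
      rw [← hZc]; exact h2
    obtain ⟨w, rfl⟩ : ∃ w, p = w + 1 := ⟨p - 1, by omega⟩
    have h3 : w + 1 - 1 = w := rfl
    rw [h3] at h2'
    have h4 : (w + 1) ^ 2 + (w + 1) - 1 = (w + 1) ^ 2 + w := by omega
    rw [h4]
    calc (w + 1) ^ 3 * kc s G = (w + 1) ^ 2 * ((w + 1) * kc s G) := by ring
      _ ≤ (w + 1) ^ 2 * (Nat.card A + w * Nat.card (Subgroup.center A)) := Nat.mul_le_mul_left _ h2'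
      _ = (w + 1) ^ 2 * Nat.card A + w * ((w + 1) ^ 2 * Nat.card (Subgroup.center A)) := by ring
      _ ≤ (w + 1) ^ 2 * Nat.card A + w * Nat.card A := Nat.add_le_add_left (Nat.mul_le_mul_left _ h1) _
      _ = Nat.card A * ((w + 1) ^ 2 + w) := by ring
  · intro v hv hvZ
    have hvA : v ∈ A := hv
    -- class of v in A
    let X := Cfsg.Agent.H518.PiCaseTwo.cls A v
    have hX := Cfsg.Agent.H518.PiCaseTwo.card_cls_mul A v
    have hle : Nat.card X ≤ Nat.card {w : G // w ∈ (A : Set G) ∧ IsConj v w} := by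
      have hmem : ∀ y : X, (y : G) ∈ (A : Set G) ∧ IsConj v (y : G) := by
        rintro ⟨_, k, hk, rfl⟩
        exact ⟨mul_mem (mul_mem hk hvA) (inv_mem hk), isConj_iff.2 ⟨k, rfl⟩⟩
      refine Nat.card_le_card_of_injective (fun y : X => (⟨(y : G), hmem y⟩ :
        {w : G // w ∈ (A : Set G) ∧ IsConj v w})) ?_
      intro y y' h
      exact Subtype.ext (congrArg (fun w => (w.1 : G)) h)
    refine le_trans ?_ hle
    have hpos : 0 < Nat.card X := by
      rcases Nat.eq_zero_or_pos (Nat.card X) with h0 | h0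
      · rw [h0, zero_mul] at hX
        exact absurd hX.symm Nat.card_pos.ne'
      · exact h0
    have hne1 : Nat.card X ≠ 1 := by
      intro h8
      have hsub : Subsingleton X := (Nat.card_eq_one_iff_unique.1 h8).1
      apply hvZ
      refine ⟨⟨v, hvA⟩, ?_, rfl⟩
      show (⟨v, hvA⟩ : A) ∈ Subgroup.center A
      rw [Subgroup.mem_center_iff]
      rintro ⟨a, ha⟩
      have e1 : v ∈ X := ⟨1, one_mem _, by simp⟩
      have e2 : a * v * a⁻¹ ∈ X := ⟨a, ha, rfl⟩
      have e3 : a * v * a⁻¹ = v := congrArg Subtype.val (hsub.elim (⟨_, e2⟩ : X) ⟨_, e1⟩)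
      apply Subtype.ext
      rwa [mul_inv_eq_iff_eq_mul] at e3
    obtain ⟨q, hq, hqd⟩ := Nat.exists_prime_and_dvd hne1
    have h9 : q ∣ Nat.card A := hqd.trans ⟨_, hX.symm⟩
    exact (hpA q hq h9).trans (Nat.le_of_dvd hpos hqd)

/-- The translation between the formulation with a set of primes and the one with a finite set. -/
theorem card_classes_le {G : Type u} [Group G] [Finite G] (π : Set ℕ)
    (m : ℕ) (hm : m ∣ Nat.card G) (hmπ : ∀ q : ℕ, q.Prime → q ∣ m → q ∈ π)
    (hm' : ∀ q ∈ π, ¬ q ∣ Nat.card G / m) :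
    m = part m.primeFactors (Nat.card G) ∧
    Nat.card {C : ConjClasses G // ∀ q : ℕ, q.Prime → (∃ g : G, ConjClasses.mk g = C ∧ q ∣ orderOf g) → q ∈ π} ≤
      kc m.primeFactors G := by
  classical
  have hG : Nat.card G ≠ 0 := Nat.card_pos.ne'
  have hm0 : m ≠ 0 := fun h => by rw [h, zero_dvd_iff] at hm; exact hG hm
  have hs : ∀ q ∈ m.primeFactors, q.Prime := fun q hq => Nat.prime_of_mem_primeFactors hq
  refine ⟨?_, ?_⟩
  · symm
    unfold part
    have h1 : ∏ q ∈ m.primeFactors, q ^ (Nat.card G).factorization q =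
        ∏ q ∈ m.primeFactors, q ^ m.factorization q := by
      apply Finset.prod_congr rfl
      intro q hq
      have hqp := hs q hq
      have hqm : q ∣ m := Nat.dvd_of_mem_primeFactors hq
      obtain ⟨c, hc⟩ := hm
      have hc0 : c ≠ 0 := fun h => hG (by rw [hc, h, mul_zero])
      have hqc : ¬ q ∣ c := by
        have := hm' q (hmπ q hqp hqm)
        rwa [hc, Nat.mul_div_cancel_left _ (Nat.pos_of_ne_zero hm0)] at this
      rw [hc, Nat.factorization_mul hm0 hc0, Finsupp.add_apply, Nat.factorization_eq_zero_of_not_dvd hqc, add_zero]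
    rw [h1]
    exact Nat.prod_factorization_pow_eq_self hm0
  · have hin : ∀ C : {C : ConjClasses G // ∀ q : ℕ, q.Prime → (∃ g : G, ConjClasses.mk g = C ∧ q ∣ orderOf g) → q ∈ π},
        ∃ g : G, ConjClasses.mk g = C.1 ∧ IsElt m.primeFactors g := by
      rintro ⟨C, hC⟩
      obtain ⟨g, rfl⟩ := ConjClasses.exists_rep C
      refine ⟨g, rfl, ?_⟩
      intro q hq hqd
      have hqπ := hC q hq ⟨g, rfl, hqd⟩
      rw [Nat.mem_primeFactors]
      refine ⟨hq, ?_, hm0⟩
      by_contra hqm
      have hqG : q ∣ Nat.card G := hqd.trans (orderOf_dvd_natCard g)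
      apply hm' q hqπ
      have h2 : m * (Nat.card G / m) = Nat.card G := Nat.mul_div_cancel' hm
      rw [← h2] at hqG
      exact (hq.dvd_mul.1 hqG).resolve_left hqm
    refine Nat.card_le_card_of_injective (fun C => (⟨C.1, hin C⟩ : {C : ConjClasses G // ∃ g : G,
      ConjClasses.mk g = C ∧ IsElt m.primeFactors g})) ?_
    intro C D h
    rw [Subtype.mk.injEq] at h
    exact Subtype.ext h

end Cfsg.Agent.H518.PiFinal
end
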